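import Mathlib
import Cfsg.Prelude.Def_PLocal
import Cfsg.Prelude.Def_LocalEven

/-!
# Common definitions for `N(J(S))` controls transfer (S3068)
-/

set_option autoImplicit false

namespace Cfsg.Agent.Lib.JTrans

open Subgroup Cfsg
open scoped commutatorElement

variable {G : Type*} [Group G]

/-- `A` is an abelian subgroup of `S` of largest order. -/
structure IsMaxAb (S A : Subgroup G) : Prop where
  le : A ≤ S
  comm : ∀ a ∈ A, ∀ b ∈ A, a * b = b * a
  max : ∀ M : Subgroup G, M ≤ S → (∀ a ∈ M, ∀ b ∈ M, a * b = b * a) → Nat.card M ≤ Nat.card A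

/-- The subgroup generated by the commutators `[z, e]`, `e ∈ A`. -/
def cA (z : G) (A : Subgroup G) : Subgroup G := closure {x | ∃ e ∈ A, x = ⁅z, e⁆}

/-- `A` is outside `P` with `|A ∩ P|` maximal. -/
structure Setup (S P A : Subgroup G) : Prop where
  hA : IsMaxAb S A
  hPS : P ≤ S
  hPn : ∀ s ∈ S, ∀ x ∈ P, s * x * s⁻¹ ∈ P
  hout : ¬ A ≤ P
  hmax : ∀ A' : Subgroup G, IsMaxAb S A' → ¬ A' ≤ P → Nat.card ↥(A' ⊓ P) ≤ Nat.card ↥(A ⊓ P)

end Cfsg.Agent.Lib.JTrans
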