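import Mathlib
import Cfsg.Agent.Lib.JTrans.Defs
import Cfsg.Agent.Lib.PGroup.Timmesfeld

/-!
# Thompson replacement counting for `N(J(S))` controls transfer
-/

set_option autoImplicit false

namespace Cfsg.Agent.Lib.JTrans

open Subgroup Cfsg
open scoped commutatorElement

variable {G : Type*} [Group G]

namespace Count

/-- `C ⊔ W` is abelian when `C`, `W` are abelian and commute. -/
theorem sup_comm_of {C W : Subgroup G} (hC : ∀ a ∈ C, ∀ b ∈ C, a * b = b * a)
    (hW : ∀ a ∈ W, ∀ b ∈ W, a * b = b * a) (h : ∀ c ∈ C, ∀ w ∈ W, c * w = w * c) :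
    ∀ a ∈ C ⊔ W, ∀ b ∈ C ⊔ W, a * b = b * a := by
  have h1 : ∀ a ∈ C, C ⊔ W ≤ centralizer ({a} : Set G) := by
    intro a ha
    refine sup_le ?_ ?_
    · intro c hc
      rw [mem_centralizer_iff]
      intro x hx
      rw [Set.mem_singleton_iff] at hx
      subst hx
      exact hC _ ha _ hc
    · intro c hc
      rw [mem_centralizer_iff]
      intro x hx
      rw [Set.mem_singleton_iff] at hx
      subst hx
      exact h _ ha _ hc
  have h2 : ∀ a ∈ W, C ⊔ W ≤ centralizer ({a} : Set G) := by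
    intro a ha
    refine sup_le ?_ ?_
    · intro c hc
      rw [mem_centralizer_iff]
      intro x hx
      rw [Set.mem_singleton_iff] at hx
      subst hx
      exact (h _ hc _ ha).symm
    · intro c hc
      rw [mem_centralizer_iff]
      intro x hx
      rw [Set.mem_singleton_iff] at hx
      subst hx
      exact hW _ ha _ hc
  have h3 : ∀ b ∈ C ⊔ W, C ⊔ W ≤ centralizer ({b} : Set G) := by
    intro b hb
    refine sup_le ?_ ?_
    · intro c hc
      rw [mem_centralizer_iff]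
      intro x hx
      rw [Set.mem_singleton_iff] at hx
      subst hx
      exact ((mem_centralizer_iff.1 (h1 c hc hb)) c (Set.mem_singleton c)).symm
    · intro c hc
      rw [mem_centralizer_iff]
      intro x hx
      rw [Set.mem_singleton_iff] at hx
      subst hx
      exact ((mem_centralizer_iff.1 (h2 c hc hb)) c (Set.mem_singleton c)).symm
  intro a ha b hb
  exact ((mem_centralizer_iff.1 (h3 b hb ha)) b (Set.mem_singleton b)).symm

end Count

theorem card_sup_comm [Finite G] {C W : Subgroup G} (h : ∀ c ∈ C, ∀ w ∈ W, c * w = w * c) :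
    Nat.card ↥(C ⊔ W) * Nat.card ↥(C ⊓ W) = Nat.card C * Nat.card W := by
  refine Cfsg.Agent.Lib.PGroup.Timmesfeld.card_sup_mul_card_inf_of_le_normalizer C W ?_
  intro c hc
  rw [mem_normalizer_iff]
  intro w
  constructor
  · intro hw
    rwa [h c hc w hw, mul_inv_cancel_right]
  · intro hw
    have e : c * w * c⁻¹ * c = c * (c * w * c⁻¹) := by rw [h c hc _ hw]
    have e1 : c * w * c⁻¹ * c = c * w := by group
    rw [e1] at e
    have e2 := mul_left_cancel e
    rwa [e2]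

theorem IsMaxAb.mem_of_comm [Finite G] {S A : Subgroup G} (hA : IsMaxAb S A) {x : G} (hx : x ∈ S)
    (h : ∀ a ∈ A, x * a = a * x) : x ∈ A := by
  have hz : ∀ a ∈ (zpowers x : Subgroup G), ∀ b ∈ (zpowers x : Subgroup G), a * b = b * a := by
    rintro _ ⟨i, rfl⟩ _ ⟨j, rfl⟩
    show x ^ i * x ^ j = x ^ j * x ^ i
    exact (Commute.refl x).zpow_zpow i j
  have hc : ∀ a ∈ A, ∀ w ∈ (zpowers x : Subgroup G), a * w = w * a := by
    rintro a ha _ ⟨j, rfl⟩
    show a * x ^ j = x ^ j * a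
    exact Commute.zpow_right (show Commute a x from (h a ha).symm) j
  have hab := Count.sup_comm_of hA.comm hz hc
  have hle : A ⊔ zpowers x ≤ S := sup_le hA.le ((zpowers_le).2 hx)
  have h1 := hA.max _ hle hab
  have h2 : A = A ⊔ zpowers x := Subgroup.eq_of_le_of_card_ge le_sup_left h1
  rw [h2]
  exact (le_sup_right : zpowers x ≤ A ⊔ zpowers x) (mem_zpowers x)

/-- `C ≤ A` centralizing the abelian `W ≤ S`. -/
theorem card_le_of_comm [Finite G] {S A C W : Subgroup G} (hA : IsMaxAb S A) (hCA : C ≤ A) (hWS : W ≤ S)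
    (hWab : ∀ a ∈ W, ∀ b ∈ W, a * b = b * a) (h : ∀ c ∈ C, ∀ w ∈ W, c * w = w * c) :
    Nat.card C * Nat.card W ≤ Nat.card A * Nat.card ↥(C ⊓ W) := by
  have hCab : ∀ a ∈ C, ∀ b ∈ C, a * b = b * a := fun a ha b hb => hA.comm a (hCA ha) b (hCA hb)
  have h1 := hA.max (C ⊔ W) (sup_le (hCA.trans hA.le) hWS) (Count.sup_comm_of hCab hWab h)
  rw [← card_sup_comm h]
  exact Nat.mul_le_mul_right _ h1

/-- the symmetry `[[z,b],c] = [[z,c],b]`, for commuting `b,c`, when `[z,b],[z,c],[[z,b],c],[[z,c],b]` commute pairwise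
as needed. -/
theorem comm_symm {z b c : G} (hbc : b * c = c * b)
    (h1 : ⁅z, b⁆ * ⁅z, c⁆ = ⁅z, c⁆ * ⁅z, b⁆)
    (h2 : ⁅z, c⁆ * ⁅⁅z, b⁆, c⁆ = ⁅⁅z, b⁆, c⁆ * ⁅z, c⁆)
    (h3 : ⁅z, b⁆ * ⁅⁅z, c⁆, b⁆ = ⁅⁅z, c⁆, b⁆ * ⁅z, b⁆) :
    ⁅⁅z, b⁆, c⁆ = ⁅⁅z, c⁆, b⁆ := by
  set u := ⁅z, b⁆ with hu
  set v := ⁅z, c⁆ with hv
  set p := ⁅u, c⁆ with hp
  set q := ⁅v, b⁆ with hq
  have e1 : z * (b * c) * z⁻¹ * (b * c)⁻¹ = u * (q⁻¹ * v) := by
    simp only [hu, hv, hq, commutatorElement_def]; group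
  have e2 : z * (c * b) * z⁻¹ * (c * b)⁻¹ = v * (p⁻¹ * u) := by
    simp only [hu, hv, hp, commutatorElement_def]; group
  rw [hbc, e2] at e1
  -- `v p⁻¹ u = u q⁻¹ v`
  have h2' : v * p⁻¹ = p⁻¹ * v := by
    have : p * v = v * p := h2.symm
    calc v * p⁻¹ = p⁻¹ * (p * v) * p⁻¹ := by group
      _ = p⁻¹ * (v * p) * p⁻¹ := by rw [this]
      _ = p⁻¹ * v := by group
  have h3' : u * q⁻¹ = q⁻¹ * u := by
    have : q * u = u * q := h3.symm
    calc u * q⁻¹ = q⁻¹ * (q * u) * q⁻¹ := by group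
      _ = q⁻¹ * (u * q) * q⁻¹ := by rw [this]
      _ = q⁻¹ * u := by group
  have e3 : p⁻¹ * (v * u) = q⁻¹ * (u * v) := by
    calc p⁻¹ * (v * u) = (p⁻¹ * v) * u := by group
      _ = (v * p⁻¹) * u := by rw [h2']
      _ = v * (p⁻¹ * u) := by group
      _ = u * (q⁻¹ * v) := e1
      _ = (u * q⁻¹) * v := by group
      _ = (q⁻¹ * u) * v := by rw [h3']
      _ = q⁻¹ * (u * v) := by group
  rw [← h1] at e3
  have e4 : p⁻¹ = q⁻¹ := mul_right_cancel e3
  exact inv_injective e4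

namespace Count

/-- `[z, d e] = [z, d] · d [z, e] d⁻¹`. -/
theorem comm_mul (z d e : G) : ⁅z, d * e⁆ = ⁅z, d⁆ * (d * ⁅z, e⁆ * d⁻¹) := by
  simp only [commutatorElement_def]; group

theorem comm_inv (z d : G) : ⁅z, d⁻¹⁆ = d⁻¹ * (⁅z, d⁆)⁻¹ * d := by
  simp only [commutatorElement_def]; group

variable {S A : Subgroup G} {z : G}

/-- `W = [z, A]` is `A`-invariant. -/
theorem cA_conj {A : Subgroup G} (hAc : ∀ a ∈ A, ∀ b ∈ A, a * b = b * a) {f : G} (hf : f ∈ A) :
    ∀ w ∈ cA z A, f * w * f⁻¹ ∈ cA z A := by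
  have hgen : ∀ e ∈ A, ⁅z, e⁆ ∈ cA z A := fun e he => subset_closure ⟨e, he, rfl⟩
  intro w hw
  induction hw using closure_induction with
  | mem x hx =>
    obtain ⟨e, he, rfl⟩ := hx
    have e1 : f * ⁅z, e⁆ * f⁻¹ = (⁅z, f⁆)⁻¹ * ⁅z, f * e⁆ := by
      rw [comm_mul]; group
    rw [e1]
    exact mul_mem (inv_mem (hgen f hf)) (hgen _ (mul_mem hf he))
  | one => simp [one_mem]
  | mul x y _ _ hx hy =>
    have e1 : f * (x * y) * f⁻¹ = (f * x * f⁻¹) * (f * y * f⁻¹) := by group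
    rw [e1]
    exact mul_mem hx hy
  | inv x _ hx =>
    have e1 : f * x⁻¹ * f⁻¹ = (f * x * f⁻¹)⁻¹ := by group
    rw [e1]
    exact inv_mem hx

theorem cA_le {S A : Subgroup G} (hAS : A ≤ S) (hzS : z ∈ S) : cA z A ≤ S := by
  rw [cA, closure_le]
  rintro _ ⟨e, he, rfl⟩
  show ⁅z, e⁆ ∈ S
  rw [commutatorElement_def]
  exact mul_mem (mul_mem (mul_mem hzS (hAS he)) (inv_mem hzS)) (inv_mem (hAS he))

/-- The subgroup `K = {d ∈ A : [z, d] ∈ A}`. -/
def kSub (z : G) (A : Subgroup G) (hAc : ∀ a ∈ A, ∀ b ∈ A, a * b = b * a) : Subgroup G where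
  carrier := {d | d ∈ A ∧ ⁅z, d⁆ ∈ A}
  mul_mem' := by
    rintro d e ⟨hd, hd'⟩ ⟨he, he'⟩
    refine ⟨mul_mem hd he, ?_⟩
    rw [comm_mul]
    exact mul_mem hd' (mul_mem (mul_mem hd he') (inv_mem hd))
  one_mem' := by
    refine ⟨one_mem _, ?_⟩
    simp [one_mem]
  inv_mem' := by
    rintro d ⟨hd, hd'⟩
    refine ⟨inv_mem hd, ?_⟩
    rw [comm_inv]
    exact mul_mem (mul_mem (inv_mem hd) (inv_mem hd')) hd

theorem mem_kSub {A : Subgroup G} {hAc : ∀ a ∈ A, ∀ b ∈ A, a * b = b * a} {d : G} :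
    d ∈ kSub z A hAc ↔ d ∈ A ∧ ⁅z, d⁆ ∈ A := Iff.rfl

/-- `K` centralizes `W`. -/
theorem kSub_comm {A : Subgroup G} (hAc : ∀ a ∈ A, ∀ b ∈ A, a * b = b * a)
    (hab : ∀ x ∈ cA z A, ∀ y ∈ cA z A, x * y = y * x) {d : G} (hd : d ∈ kSub z A hAc) :
    ∀ x ∈ cA z A, d * x = x * d := by
  have hgen : ∀ e ∈ A, ⁅z, e⁆ ∈ cA z A := fun e he => subset_closure ⟨e, he, rfl⟩
  have hcomm : ∀ u ∈ cA z A, ∀ e ∈ A, ⁅u, e⁆ ∈ cA z A := by
    intro u hu e he
    rw [commutatorElement_def]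
    have e1 : u * e * u⁻¹ * e⁻¹ = u * (e * u⁻¹ * e⁻¹) := by group
    rw [e1]
    exact mul_mem hu (cA_conj hAc he _ (inv_mem hu))
  have hdA := hd.1
  have key : ∀ e ∈ A, d * ⁅z, e⁆ = ⁅z, e⁆ * d := by
    intro e he
    have h1 : ⁅⁅z, d⁆, e⁆ = ⁅⁅z, e⁆, d⁆ :=
      comm_symm (hAc d hdA e he) (hab _ (hgen d hdA) _ (hgen e he))
        (hab _ (hgen e he) _ (hcomm _ (hgen d hdA) e he))
        (hab _ (hgen d hdA) _ (hcomm _ (hgen e he) d hdA))
    have h2 : ⁅⁅z, d⁆, e⁆ = 1 :=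
      commutatorElement_eq_one_iff_mul_comm.2 (hAc _ hd.2 _ he)
    rw [h2] at h1
    exact (commutatorElement_eq_one_iff_mul_comm.1 h1.symm).symm
  intro x hx
  induction hx using closure_induction with
  | mem x hx =>
    obtain ⟨e, he, rfl⟩ := hx
    exact key e he
  | one => simp
  | mul x y _ _ hx hy =>
    calc d * (x * y) = (d * x) * y := by group
      _ = x * (d * y) := by rw [hx]; group
      _ = x * y * d := by rw [hy]; group
  | inv x _ hx =>
    calc d * x⁻¹ = x⁻¹ * (x * d) * x⁻¹ := by group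
      _ = x⁻¹ * (d * x) * x⁻¹ := by rw [hx]
      _ = x⁻¹ * d := by group

end Count

/-- The counting heart (Thompson replacement/"Lemma R"): `W = [z,A]` abelian. `K = {d ∈ A : [z,d] ∈ A}` is a subgroup
centralizing `W`, `K W` is again abelian of largest order, and every element of `W` is `[z,d] w'` with `w' ∈ W ∩ A`. -/
theorem gen_count [Finite G] {S A : Subgroup G} (hA : IsMaxAb S A) {z : G} (hzS : z ∈ S)
    (hab : ∀ x ∈ cA z A, ∀ y ∈ cA z A, x * y = y * x) :
    ∃ K : Subgroup G, (∀ d, d ∈ K ↔ d ∈ A ∧ ⁅z, d⁆ ∈ A) ∧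
      (∀ d ∈ K, ∀ x ∈ cA z A, d * x = x * d) ∧
      IsMaxAb S (K ⊔ cA z A) ∧
      (∀ w ∈ cA z A, ∃ d ∈ A, ∃ w' ∈ cA z A ⊓ A, w = ⁅z, d⁆ * w') ∧
      Nat.card A * Nat.card ↥(cA z A ⊓ A) = Nat.card K * Nat.card (cA z A) := by
  classical
  set W := cA z A with hWdef
  have hAc := hA.comm
  set K := Count.kSub z A hAc with hKdef
  have hKA : K ≤ A := fun d hd => hd.1
  have hWS : W ≤ S := Count.cA_le hA.le hzS
  have hgen : ∀ e ∈ A, ⁅z, e⁆ ∈ W := fun e he => subset_closure ⟨e, he, rfl⟩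
  have hKW : ∀ d ∈ K, ∀ x ∈ W, d * x = x * d := fun d hd => Count.kSub_comm hAc hab hd
  let H : Subgroup G := W ⊓ A
  -- the map on cosets
  let K' : Subgroup A := K.subgroupOf A
  let H' : Subgroup W := H.subgroupOf W
  let f : A → W := fun d => ⟨⁅z, (d : G)⁆, hgen d d.2⟩
  have hf : ∀ a b : A, a⁻¹ * b ∈ K' ↔ (f a)⁻¹ * f b ∈ H' := by
    intro a b
    have e1 : ((f a)⁻¹ * f b : W).1 = (a : G) * ⁅z, ((a⁻¹ * b : A) : G)⁆ * (a : G)⁻¹ := by
      show (⁅z, (a : G)⁆)⁻¹ * ⁅z, (b : G)⁆ = _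
      have e2 : (b : G) = (a : G) * ((a⁻¹ * b : A) : G) := by simp
      conv_lhs => rw [e2, Count.comm_mul]
      group
    rw [Subgroup.mem_subgroupOf, Subgroup.mem_subgroupOf]
    constructor
    · intro h
      refine ⟨((f a)⁻¹ * f b : W).2, ?_⟩
      rw [e1]
      exact A.mul_mem (A.mul_mem a.2 h.2) (A.inv_mem a.2)
    · intro h
      refine ⟨(a⁻¹ * b : A).2, ?_⟩
      have h2 := h.2
      rw [e1] at h2
      have e3 : ⁅z, ((a⁻¹ * b : A) : G)⁆ = (a : G)⁻¹ * ((a : G) * ⁅z, ((a⁻¹ * b : A) : G)⁆ * (a : G)⁻¹) * (a : G) := by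
        group
      rw [e3]
      exact A.mul_mem (A.mul_mem (A.inv_mem a.2) h2) a.2
  let φ : A ⧸ K' → W ⧸ H' := Quotient.map' f (by
    intro a b h
    rw [QuotientGroup.leftRel_apply] at h ⊢
    exact (hf a b).1 h)
  have hφ : Function.Injective φ := by
    intro x y
    induction x using QuotientGroup.induction_on with
    | H a =>
    induction y using QuotientGroup.induction_on with
    | H b =>
    intro h
    have h1 : (f a : W ⧸ H') = (f b : W ⧸ H') := h
    rw [QuotientGroup.eq] at h1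
    rw [QuotientGroup.eq]
    exact (hf a b).2 h1
  have hcK : Nat.card K' = Nat.card K :=
    Nat.card_congr (Subgroup.subgroupOfEquivOfLe hKA).toEquiv
  have hcH : Nat.card H' = Nat.card H :=
    Nat.card_congr (Subgroup.subgroupOfEquivOfLe (inf_le_left : H ≤ W)).toEquiv
  have hA1 : Nat.card A = Nat.card K * K'.index := by
    rw [← hcK, Subgroup.card_mul_index]
  have hW1 : Nat.card W = Nat.card H * H'.index := by
    rw [← hcH, Subgroup.card_mul_index]
  have hle : K'.index ≤ H'.index := by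
    have := Nat.card_le_card_of_injective φ hφ
    exact this
  -- the centralizer
  let C : Subgroup G := A ⊓ centralizer (W : Set G)
  have hKC : K ≤ C := by
    intro d hd
    refine ⟨hd.1, mem_centralizer_iff.2 fun x hx => ?_⟩
    exact (hKW d hd x hx).symm
  have hHC : H ≤ C := by
    intro x hx
    refine ⟨hx.2, mem_centralizer_iff.2 fun y hy => ?_⟩
    exact hab y hy x hx.1
  have hCW : ∀ c ∈ C, ∀ w ∈ W, c * w = w * c := fun c hc w hw =>
    (mem_centralizer_iff.1 hc.2 w hw).symm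
  have h1 := card_le_of_comm hA inf_le_left hWS hab hCW
  have hCH : C ⊓ W ≤ H := fun x hx => ⟨hx.2, hx.1.1⟩
  have h2 : Nat.card ↥(C ⊓ W) ≤ Nat.card H := Subgroup.card_le_of_le hCH
  have h3 : Nat.card K ≤ Nat.card C := Subgroup.card_le_of_le hKC
  have hKpos : 0 < Nat.card K := Nat.card_pos
  have hHpos : 0 < Nat.card H := Nat.card_pos
  have hWpos : 0 < Nat.card W := Nat.card_pos
  have h4 : Nat.card C * Nat.card W ≤ Nat.card A * Nat.card H :=
    h1.trans (Nat.mul_le_mul_left _ h2)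
  have hge : H'.index ≤ K'.index := by
    have h5 : Nat.card K * (Nat.card H * H'.index) ≤ (Nat.card K * K'.index) * Nat.card H := by
      rw [← hW1, ← hA1]
      exact (Nat.mul_le_mul_right _ h3).trans h4
    have h6 : (Nat.card K * Nat.card H) * H'.index ≤ (Nat.card K * Nat.card H) * K'.index := by
      calc (Nat.card K * Nat.card H) * H'.index = Nat.card K * (Nat.card H * H'.index) := by ring
        _ ≤ (Nat.card K * K'.index) * Nat.card H := h5
        _ = (Nat.card K * Nat.card H) * K'.index := by ring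
    exact Nat.le_of_mul_le_mul_left h6 (Nat.mul_pos hKpos hHpos)
  have hidx : K'.index = H'.index := le_antisymm hle hge
  have hcount : Nat.card A * Nat.card H = Nat.card K * Nat.card W := by
    rw [hA1, hW1, hidx]
    ring
  have hCK : Nat.card C ≤ Nat.card K := by
    have h5 : Nat.card C * Nat.card W ≤ Nat.card K * Nat.card W := by
      rw [← hcount]
      exact h4
    exact Nat.le_of_mul_le_mul_right h5 hWpos
  have hKeqC : K = C := Subgroup.eq_of_le_of_card_ge hKC hCK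
  have hinf : K ⊓ W = H := by
    apply le_antisymm
    · intro x hx
      exact ⟨hx.2, hx.1.1⟩
    · intro x hx
      refine ⟨?_, hx.1⟩
      rw [hKeqC]
      exact hHC hx
  have hsup : Nat.card ↥(K ⊔ W) = Nat.card A := by
    have h5 := card_sup_comm hKW
    rw [hinf, ← hcount] at h5
    exact Nat.eq_of_mul_eq_mul_right hHpos h5
  have hsurj : Function.Surjective φ := by
    have hb : Function.Bijective φ :=
      hφ.bijective_of_nat_card_le (by
        show H'.index ≤ K'.index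
        exact hge)
    exact hb.2
  refine ⟨K, fun d => Iff.rfl, hKW, ⟨sup_le (hKA.trans hA.le) hWS, ?_, ?_⟩, ?_, hcount⟩
  · exact Count.sup_comm_of (fun a ha b hb => hAc a (hKA ha) b (hKA hb)) hab hKW
  · intro M hMS hM
    rw [hsup]
    exact hA.max M hMS hM
  · intro w hw
    obtain ⟨x, hx⟩ := hsurj ((⟨w, hw⟩ : W) : W ⧸ H')
    induction x using QuotientGroup.induction_on with
    | H d =>
    have h5 : (f d : W ⧸ H') = ((⟨w, hw⟩ : W) : W ⧸ H') := hx
    rw [QuotientGroup.eq, Subgroup.mem_subgroupOf] at h5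
    refine ⟨d, d.2, ((f d)⁻¹ * ⟨w, hw⟩ : W).1, h5, ?_⟩
    show w = ⁅z, (d : G)⁆ * ((⁅z, (d : G)⁆)⁻¹ * w)
    group

/-- `iterCommutator` of anything with a subgroup of the `p`-group `S` dies. -/
theorem iter_eventually_bot [Finite G] {p : ℕ} [Fact p.Prime] {S W A : Subgroup G} (hS : IsPGroup p S) (hW : W ≤ S)
    (hA : A ≤ S) : ∃ k, iterCommutator W A k = ⊥ := by
  haveI : Group.IsNilpotent S := hS.isNilpotent
  obtain ⟨n, hn⟩ := (Subgroup.isNilpotent_iff_lowerCentralSeries S).1 inferInstance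
  refine ⟨n, ?_⟩
  have key : ∀ k, iterCommutator W A k ≤ S.lowerCentralSeries k := by
    intro k
    induction k with
    | zero => exact hW
    | succ k ih =>
      show ⁅iterCommutator W A k, A⁆ ≤ _
      rw [Subgroup.lowerCentralSeries_succ]
      exact Subgroup.commutator_mono ih hA
  rw [eq_bot_iff]
  exact (key n).trans hn.le

end Cfsg.Agent.Lib.JTrans
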