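/-
The cubic commutator lemma at the level of `T`: an element of `B` and two elements of `A`, when a
subgroup generated by a part of `A ∩ P` and a subgroup of `Z` is abelian of largest order.
-/
import Mathlib
import Cfsg.Agent.Lib.JTrans.Defs
import Cfsg.Agent.Lib.JTrans.Count

set_option autoImplicit false
set_option linter.unusedVariables false
set_option linter.unusedSectionVars false
set_option linter.unusedSimpArgs false

namespace Cfsg.Agent.Lib.JTrans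

open Subgroup Cfsg
open scoped commutatorElement

variable {G : Type*} [Group G]

namespace TCubic

/-- Elements of the join of two commuting subgroups. -/
theorem mem_sup_comm {K W : Subgroup G} (h : ∀ c ∈ K, ∀ w ∈ W, c * w = w * c) {x : G}
    (hx : x ∈ K ⊔ W) : ∃ k ∈ K, ∃ w ∈ W, x = k * w := by
  let M : Subgroup G :=
    { carrier := {x | ∃ k ∈ K, ∃ w ∈ W, x = k * w}
      mul_mem' := by
        rintro _ _ ⟨k, hk, w, hw, rfl⟩ ⟨k', hk', w', hw', rfl⟩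
        refine ⟨k * k', K.mul_mem hk hk', w * w', W.mul_mem hw hw', ?_⟩
        have := h k' hk' w hw
        calc k * w * (k' * w') = k * (w * k') * w' := by group
          _ = k * (k' * w) * w' := by rw [this]
          _ = k * k' * (w * w') := by group
      one_mem' := ⟨1, K.one_mem, 1, W.one_mem, by simp⟩
      inv_mem' := by
        rintro _ ⟨k, hk, w, hw, rfl⟩
        refine ⟨k⁻¹, K.inv_mem hk, w⁻¹, W.inv_mem hw, ?_⟩
        have := h k hk w hw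
        rw [mul_inv_rev]
        calc w⁻¹ * k⁻¹ = (k * w)⁻¹ := by group
          _ = (w * k)⁻¹ := by rw [this]
          _ = k⁻¹ * w⁻¹ := by group }
  have hle : K ⊔ W ≤ M := sup_le (fun k hk => ⟨k, hk, 1, W.one_mem, by simp⟩)
    (fun w hw => ⟨1, K.one_mem, w, hw, by simp⟩)
  exact hle hx

theorem comm_mem {Z : Subgroup G} {a z : G} (hz : z ∈ Z) (h : a * z⁻¹ * a⁻¹ ∈ Z) : ⁅z, a⁆ ∈ Z := by
  have e : ⁅z, a⁆ = z * (a * z⁻¹ * a⁻¹) := by
    simp only [commutatorElement_def]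
    group
  rw [e]
  exact Z.mul_mem hz h

/-- The counting step. -/
theorem card_le_of_map [Finite G] {K Ker W C : Subgroup G} (hKerK : Ker ≤ K) (hCW : C ≤ W)
    (f : G → G) (hf : ∀ c ∈ K, f c ∈ W)
    (hinj : ∀ c ∈ K, ∀ c' ∈ K, (f c)⁻¹ * f c' ∈ C → c⁻¹ * c' ∈ Ker) :
    Nat.card K * Nat.card C ≤ Nat.card Ker * Nat.card W := by
  let g : (↥K ⧸ Ker.subgroupOf K) → (↥W ⧸ C.subgroupOf W) :=
    fun q => QuotientGroup.mk ⟨f (q.out : G), hf _ q.out.2⟩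
  have hg : Function.Injective g := by
    intro q q' h
    have h1 := QuotientGroup.eq.1 h
    rw [Subgroup.mem_subgroupOf] at h1
    have h2 : (f (q.out : G))⁻¹ * f (q'.out : G) ∈ C := by
      simpa using h1
    have h3 := hinj _ q.out.2 _ q'.out.2 h2
    rw [← QuotientGroup.out_eq' q, ← QuotientGroup.out_eq' q']
    apply QuotientGroup.eq.2
    rw [Subgroup.mem_subgroupOf]
    simpa using h3
  have hle : Nat.card (↥K ⧸ Ker.subgroupOf K) ≤ Nat.card (↥W ⧸ C.subgroupOf W) :=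
    Nat.card_le_card_of_injective g hg
  have e1 : Nat.card K = Nat.card (↥K ⧸ Ker.subgroupOf K) * Nat.card Ker := by
    rw [Subgroup.card_eq_card_quotient_mul_card_subgroup (Ker.subgroupOf K),
      Nat.card_congr (Subgroup.subgroupOfEquivOfLe hKerK).toEquiv]
  have e2 : Nat.card W = Nat.card (↥W ⧸ C.subgroupOf W) * Nat.card C := by
    rw [Subgroup.card_eq_card_quotient_mul_card_subgroup (C.subgroupOf W),
      Nat.card_congr (Subgroup.subgroupOfEquivOfLe hCW).toEquiv]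
  rw [e1, e2]
  calc Nat.card (↥K ⧸ Ker.subgroupOf K) * Nat.card Ker * Nat.card C
      ≤ Nat.card (↥W ⧸ C.subgroupOf W) * Nat.card Ker * Nat.card C := by gcongr
    _ = Nat.card Ker * (Nat.card (↥W ⧸ C.subgroupOf W) * Nat.card C) := by ring

end TCubic

open TCubic

/-- `D = K ⊔ U ∈ 𝒜(S)` with `K ≤ A ⊓ P`, `U ≤ Z`, `[U,A,A] = 1`, `B ≤ P`, `[P,B] ≤ Z`, `Z ≤ B` central
in `B`. Then a commutator `[[y,b],b']`, `y ∈ B`, `b, b' ∈ A` lies in `(A ⊓ B) Z`. -/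
theorem t_cubic [Finite G] {S P A B Z K U : Subgroup G} (hA : IsMaxAb S A) (hPS : P ≤ S)
    (hKA : K ≤ A ⊓ P) (hUZ : U ≤ Z)
    (hD : IsMaxAb S (K ⊔ U)) (hUq : ∀ u ∈ U, ∀ a ∈ A, ∀ b ∈ A, ⁅⁅u, a⁆, b⁆ = 1)
    (hZab : ∀ a ∈ Z, ∀ b ∈ Z, a * b = b * a) (hZA : ∀ a ∈ A, ∀ z ∈ Z, a * z * a⁻¹ ∈ Z)
    (hBP : B ≤ P) (hZB : Z ≤ B) (hZc : ∀ z ∈ Z, ∀ y ∈ B, z * y = y * z)
    (hPB : ∀ x ∈ P, ∀ y ∈ B, ⁅y, x⁆ ∈ Z)
    (hBA : ∀ a ∈ A, ∀ y ∈ B, a * y * a⁻¹ ∈ B)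
    {y : G} (hy : y ∈ B) {b b' : G} (hb : b ∈ A) (hb' : b' ∈ A) :
    ∃ f ∈ A ⊓ B, ∃ z ∈ Z, ⁅⁅y, b⁆, b'⁆ = f * z := by
  classical
  have hKAa : K ≤ A := fun c hc => (hKA hc).1
  have hKP : K ≤ P := fun c hc => (hKA hc).2
  have hKab : ∀ a ∈ K, ∀ b ∈ K, a * b = b * a := fun a ha b hb =>
    hA.comm a (hKAa ha) b (hKAa hb)
  have hBS : B ≤ S := hBP.trans hPS
  have hZS : Z ≤ S := hZB.trans hBS
  have comm_Z : ∀ a ∈ A, ∀ z ∈ Z, ⁅z, a⁆ ∈ Z := fun a ha z hz =>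
    comm_mem hz (hZA a ha _ (Z.inv_mem hz))
  have comm_B : ∀ a ∈ A, ∀ x ∈ B, ⁅x, a⁆ ∈ B := fun a ha x hx =>
    comm_mem hx (hBA a ha _ (B.inv_mem hx))
  -- the centralizer of `K` in `Z`
  obtain ⟨C, hCdef⟩ : ∃ C : Subgroup G, C = Z ⊓ centralizer (K : Set G) := ⟨_, rfl⟩
  have hCZ : C ≤ Z := by rw [hCdef]; exact inf_le_left
  have hCK : ∀ z ∈ C, ∀ c ∈ K, z * c = c * z := by
    intro z hz c hc
    rw [hCdef] at hz
    exact (Subgroup.mem_centralizer_iff.1 hz.2 c hc).symm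
  have hCmem : ∀ z ∈ Z, (∀ c ∈ K, z * c = c * z) → z ∈ C := by
    intro z hz h
    rw [hCdef]
    exact ⟨hz, Subgroup.mem_centralizer_iff.2 fun c hc => (h c hc).symm⟩
  have hKU : ∀ c ∈ K, ∀ u ∈ U, c * u = u * c := fun c hc u hu =>
    hD.comm c (mem_sup_left hc) u (mem_sup_right hu)
  have hCdec : ∀ z ∈ C, ∃ k ∈ K ⊓ Z, ∃ u ∈ U, z = k * u := by
    intro z hz
    have hcomm : ∀ d ∈ K ⊔ U, z * d = d * z := by
      intro d hd
      obtain ⟨k, hk, u, hu, rfl⟩ := mem_sup_comm hKU hd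
      have h1 := hCK z hz k hk
      have h2 := hZab z (hCZ hz) u (hUZ hu)
      calc z * (k * u) = (z * k) * u := by group
        _ = (k * z) * u := by rw [h1]
        _ = k * (z * u) := by group
        _ = k * (u * z) := by rw [h2]
        _ = k * u * z := by group
    have hzD : z ∈ K ⊔ U := hD.mem_of_comm (hZS (hCZ hz)) hcomm
    obtain ⟨k, hk, u, hu, rfl⟩ := mem_sup_comm hKU hzD
    have hkZ : k ∈ Z := by
      have := Z.mul_mem (hCZ hz) (Z.inv_mem (hUZ hu))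
      simpa using this
    exact ⟨k, ⟨hk, hkZ⟩, u, hu, rfl⟩
  have hCq : ∀ z ∈ C, ∀ a ∈ A, ∀ a' ∈ A, ⁅⁅z, a⁆, a'⁆ = 1 := by
    intro z hz a ha a' ha'
    obtain ⟨k, hk, u, hu, rfl⟩ := hCdec z hz
    have hku : ⁅k * u, a⁆ = ⁅u, a⁆ := by
      have h1 : k * a = a * k := hA.comm k (hKAa hk.1) a ha
      have h2 : ⁅u, a⁆ ∈ Z := comm_Z a ha u (hUZ hu)
      have h3 : k * ⁅u, a⁆ = ⁅u, a⁆ * k := hZab k hk.2 _ h2
      have h4 : a * k⁻¹ * a⁻¹ = k⁻¹ := by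
        calc a * k⁻¹ * a⁻¹ = (a * k * a⁻¹)⁻¹ := by group
          _ = k⁻¹ := by
            rw [← h1]
            group
      calc ⁅k * u, a⁆ = k * ⁅u, a⁆ * (a * k⁻¹ * a⁻¹) := by
            simp only [commutatorElement_def]
            group
        _ = k * ⁅u, a⁆ * k⁻¹ := by rw [h4]
        _ = ⁅u, a⁆ := by
            rw [h3]
            group
    rw [hku]
    exact hUq u hu a ha a' ha'
  have hyK : ∀ c ∈ P, ⁅y, c⁆ ∈ Z := fun c hc => hPB c hc y hy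
  have comm_mul : ∀ c c' : G, ⁅y, c * c'⁆ = ⁅y, c⁆ * (c * ⁅y, c'⁆ * c⁻¹) := fun c c' => by
    simp only [commutatorElement_def]
    group
  have hconj : ∀ t ∈ C, ∀ c ∈ K, c * t * c⁻¹ = t := by
    intro t ht c hc
    rw [← hCK t ht c hc]
    group
  have hconj' : ∀ t ∈ C, ∀ c ∈ K, c⁻¹ * t * c = t := by
    intro t ht c hc
    rw [mul_assoc, hCK t ht c hc]
    group
  -- the kernel
  let Ker : Subgroup G :=
    { carrier := {c | c ∈ K ∧ ⁅y, c⁆ ∈ C}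
      mul_mem' := by
        rintro c c' ⟨h1, h2⟩ ⟨h3, h4⟩
        refine ⟨K.mul_mem h1 h3, ?_⟩
        rw [comm_mul, hconj _ h4 c h1]
        exact C.mul_mem h2 h4
      one_mem' := ⟨K.one_mem, by simp [C.one_mem]⟩
      inv_mem' := by
        rintro c ⟨h1, h2⟩
        refine ⟨K.inv_mem h1, ?_⟩
        have e : ⁅y, c⁻¹⁆ = c⁻¹ * ⁅y, c⁆⁻¹ * c := by
          simp only [commutatorElement_def]
          group
        rw [e, hconj' _ (C.inv_mem h2) c h1]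
        exact C.inv_mem h2 }
  have hKerK : Ker ≤ K := fun c hc => hc.1
  have hKerC : ∀ c ∈ Ker, ⁅y, c⁆ ∈ C := fun c hc => hc.2
  have hKerMem : ∀ c ∈ K, ⁅y, c⁆ ∈ C → c ∈ Ker := fun c h1 h2 => ⟨h1, h2⟩
  -- the subgroup `W`
  obtain ⟨W, hWdef⟩ : ∃ W : Subgroup G, W = closure {x | ∃ c ∈ K, x = ⁅y, c⁆} ⊔ C := ⟨_, rfl⟩
  have hWZ : W ≤ Z := by
    rw [hWdef]
    refine sup_le ((closure_le _).2 ?_) hCZ
    rintro _ ⟨c, hc, rfl⟩
    exact hyK c (hKP hc)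
  have hCW : C ≤ W := by
    rw [hWdef]
    exact le_sup_right
  have hyW : ∀ c ∈ K, ⁅y, c⁆ ∈ W := by
    intro c hc
    rw [hWdef]
    exact mem_sup_left (subset_closure ⟨c, hc, rfl⟩)
  -- `Ker` centralizes `W`
  have hKerW : ∀ c' ∈ Ker, ∀ w ∈ W, c' * w = w * c' := by
    intro c' hc' w hw
    have hle : W ≤ centralizer ({c'} : Set G) := by
      rw [hWdef]
      apply sup_le
      · apply (closure_le _).2
        rintro _ ⟨c, hc, rfl⟩
        rw [SetLike.mem_coe, Subgroup.mem_centralizer_iff]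
        intro t ht
        rw [Set.mem_singleton_iff.1 ht]
        have hc'K := hKerK hc'
        have hzc := hyK c (hKP hc)
        have hzc' := hyK c' (hKP hc'K)
        have h1 := comm_symm (z := y) (b := c) (c := c') (hKab c hc c' hc'K)
          (hZab _ hzc _ hzc')
          (hZab _ hzc' _ (comm_Z c' (hKAa hc'K) _ hzc))
          (hZab _ hzc _ (comm_Z c (hKAa hc) _ hzc'))
        have h2 : ⁅⁅y, c'⁆, c⁆ = 1 :=
          commutatorElement_eq_one_iff_mul_comm.2 (hCK _ (hKerC c' hc') c hc)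
        rw [h2] at h1
        exact (commutatorElement_eq_one_iff_mul_comm.1 h1).symm
      · intro z hz
        rw [Subgroup.mem_centralizer_iff]
        intro t ht
        rw [Set.mem_singleton_iff.1 ht]
        exact (hCK z hz c' (hKerK hc')).symm
    exact Subgroup.mem_centralizer_iff.1 (hle hw) c' rfl
  -- the count
  have hcount : Nat.card K * Nat.card C ≤ Nat.card Ker * Nat.card W := by
    refine card_le_of_map hKerK hCW (fun c => ⁅y, c⁆) hyW ?_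
    intro c hc c' hc' h
    refine hKerMem _ (K.mul_mem (K.inv_mem hc) hc') ?_
    have e : c * ⁅y, c⁻¹ * c'⁆ * c⁻¹ = (⁅y, c⁆)⁻¹ * ⁅y, c'⁆ := by
      have := comm_mul c (c⁻¹ * c')
      rw [mul_inv_cancel_left] at this
      rw [this]
      group
    have e2 : ⁅y, c⁻¹ * c'⁆ = c⁻¹ * ((⁅y, c⁆)⁻¹ * ⁅y, c'⁆) * c := by
      rw [← e]
      group
    rw [e2, hconj' _ h c hc]
    exact h
  -- structure of `C`
  have hCeq : C = (K ⊓ Z) ⊔ U := by
    apply le_antisymm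
    · intro z hz
      obtain ⟨k, hk, u, hu, rfl⟩ := hCdec z hz
      exact mul_mem (mem_sup_left hk) (mem_sup_right hu)
    · apply sup_le
      · intro k hk
        exact hCmem k hk.2 (fun c hc => hKab k hk.1 c hc)
      · intro u hu
        exact hCmem u (hUZ hu) (fun c hc => (hKU c hc u hu).symm)
  have hT : IsMaxAb S (Ker ⊔ W) := by
    have h1 := card_sup_comm (C := Ker) (W := W) hKerW
    have h2 : Nat.card ↥(Ker ⊓ W) ≤ Nat.card ↥(K ⊓ Z) :=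
      Subgroup.card_le_of_le (inf_le_inf hKerK hWZ)
    have h3 := card_sup_comm (C := K) (W := U) hKU
    have h4 := card_sup_comm (C := K ⊓ Z) (W := U)
      (fun k hk u hu => hZab k hk.2 u (hUZ hu))
    rw [← hCeq, inf_assoc, inf_eq_right.2 hUZ] at h4
    have hpos1 : 0 < Nat.card ↥(K ⊓ U) := Nat.card_pos
    have hpos2 : 0 < Nat.card ↥(K ⊓ Z) := Nat.card_pos
    have hle : Nat.card ↥(K ⊔ U) ≤ Nat.card ↥(Ker ⊔ W) := by
      have h5 : Nat.card ↥(K ⊔ U) * (Nat.card ↥(K ⊓ U) * Nat.card ↥(K ⊓ Z)) ≤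
          Nat.card ↥(Ker ⊔ W) * (Nat.card ↥(K ⊓ U) * Nat.card ↥(K ⊓ Z)) := by
        calc Nat.card ↥(K ⊔ U) * (Nat.card ↥(K ⊓ U) * Nat.card ↥(K ⊓ Z))
            = (Nat.card ↥(K ⊔ U) * Nat.card ↥(K ⊓ U)) * Nat.card ↥(K ⊓ Z) := by ring
          _ = Nat.card K * (Nat.card ↥(K ⊓ Z) * Nat.card U) := by rw [h3]; ring
          _ = Nat.card K * Nat.card C * Nat.card ↥(K ⊓ U) := by rw [← h4]; ring
          _ ≤ Nat.card Ker * Nat.card W * Nat.card ↥(K ⊓ U) := by gcongr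
          _ = Nat.card ↥(Ker ⊔ W) * Nat.card ↥(Ker ⊓ W) * Nat.card ↥(K ⊓ U) := by rw [h1]
          _ ≤ Nat.card ↥(Ker ⊔ W) * Nat.card ↥(K ⊓ Z) * Nat.card ↥(K ⊓ U) := by gcongr
          _ = Nat.card ↥(Ker ⊔ W) * (Nat.card ↥(K ⊓ U) * Nat.card ↥(K ⊓ Z)) := by ring
      exact Nat.le_of_mul_le_mul_right h5 (Nat.mul_pos hpos1 hpos2)
    have hab : ∀ a ∈ Ker ⊔ W, ∀ b ∈ Ker ⊔ W, a * b = b * a := by
      intro a ha b hb
      obtain ⟨k, hk, w, hw, rfl⟩ := mem_sup_comm hKerW ha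
      obtain ⟨k', hk', w', hw', rfl⟩ := mem_sup_comm hKerW hb
      have e1 := hKab k (hKerK hk) k' (hKerK hk')
      have e2 := hKerW k hk w' hw'
      have e3 := hKerW k' hk' w hw
      have e4 := hZab w (hWZ hw) w' (hWZ hw')
      calc k * w * (k' * w') = k * (w * k') * w' := by group
        _ = k * (k' * w) * w' := by rw [e3]
        _ = (k * k') * (w * w') := by group
        _ = (k' * k) * (w' * w) := by rw [e1, e4]
        _ = k' * (k * w') * w := by group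
        _ = k' * (w' * k) * w := by rw [e2]
        _ = k' * w' * (k * w) := by group
    refine ⟨sup_le ((hKerK.trans (hKA.trans inf_le_right)).trans hPS) (hWZ.trans hZS), hab, ?_⟩
    intro M hMS hMab
    exact (hD.max M hMS hMab).trans hle
  -- the element
  have hyb : ⁅y, b⁆ ∈ B := comm_B b hb y hy
  have hx : ⁅⁅y, b⁆, b'⁆ ∈ B := comm_B b' hb' _ hyb
  have hxKer : ∀ c' ∈ Ker, ⁅⁅y, b⁆, b'⁆ * c' = c' * ⁅⁅y, b⁆, b'⁆ := by
    intro c' hc'
    have hc'K := hKerK hc'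
    have hc'P := hKP hc'K
    have hc'A := hKAa hc'K
    have hbc' : b * c' = c' * b := hA.comm b hb c' hc'A
    have hb'c' : b' * c' = c' * b' := hA.comm b' hb' c' hc'A
    have z1 : ⁅⁅y, b⁆, c'⁆ ∈ Z := hPB c' hc'P _ hyb
    have z2 : ⁅⁅⁅y, b⁆, b'⁆, c'⁆ ∈ Z := hPB c' hc'P _ hx
    have z3 : ⁅⁅⁅y, b⁆, c'⁆, b'⁆ ∈ Z := comm_Z b' hb' _ z1
    have z4 : ⁅y, c'⁆ ∈ Z := hyK c' hc'P
    have z5 : ⁅⁅y, c'⁆, b⁆ ∈ Z := comm_Z b hb _ z4
    have e1 := comm_symm (z := ⁅y, b⁆) (b := b') (c := c') hb'c'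
      (hZc _ z1 _ hx).symm (hZab _ z1 _ z2) (hZc _ z3 _ hx).symm
    have e2 := comm_symm (z := y) (b := b) (c := c') hbc'
      (hZc _ z4 _ hyb).symm (hZab _ z4 _ z1) (hZc _ z5 _ hyb).symm
    have e3 : ⁅⁅⁅y, c'⁆, b⁆, b'⁆ = 1 := hCq _ (hKerC c' hc') b hb b' hb'
    rw [e2, e3] at e1
    exact commutatorElement_eq_one_iff_mul_comm.1 e1
  have hxcomm : ∀ t ∈ Ker ⊔ W, ⁅⁅y, b⁆, b'⁆ * t = t * ⁅⁅y, b⁆, b'⁆ := by
    intro t ht
    obtain ⟨k, hk, w, hw, rfl⟩ := mem_sup_comm hKerW ht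
    have e1 := hxKer k hk
    have e2 := hZc w (hWZ hw) _ hx
    calc ⁅⁅y, b⁆, b'⁆ * (k * w) = (⁅⁅y, b⁆, b'⁆ * k) * w := by group
      _ = (k * ⁅⁅y, b⁆, b'⁆) * w := by rw [e1]
      _ = k * (⁅⁅y, b⁆, b'⁆ * w) := by group
      _ = k * (w * ⁅⁅y, b⁆, b'⁆) := by rw [e2]
      _ = k * w * ⁅⁅y, b⁆, b'⁆ := by group
  have hxT : ⁅⁅y, b⁆, b'⁆ ∈ Ker ⊔ W := hT.mem_of_comm (hBS hx) hxcomm
  obtain ⟨f, hf, w, hw, hxe⟩ := mem_sup_comm hKerW hxT
  refine ⟨f, ⟨hKAa (hKerK hf), ?_⟩, w, hWZ hw, hxe⟩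
  have : f = ⁅⁅y, b⁆, b'⁆ * w⁻¹ := by
    rw [hxe]
    group
  rw [this]
  exact B.mul_mem hx (B.inv_mem (hZB (hWZ hw)))

end Cfsg.Agent.Lib.JTrans
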