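import Mathlib
import Cfsg.Agent.Lib.JTrans.Count

/-!
# The `Z`-level of the replacement argument for `N(J(S))` (S3068)
-/

set_option autoImplicit false
namespace Cfsg.Agent.Lib.JTrans
open Subgroup Cfsg
open scoped commutatorElement
variable {G : Type*} [Group G]

/-- second maximality -/
def Max2 (S P A Z : Subgroup G) : Prop :=
  ∀ A' : Subgroup G, IsMaxAb S A' → ¬ A' ≤ P → Nat.card ↥(A' ⊓ P) = Nat.card ↥(A ⊓ P) →
    Nat.card ↥(A' ⊓ Z) ≤ Nat.card ↥(A ⊓ Z)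

namespace ZLevel

theorem comm_mem {Z A : Subgroup G} (hZA : ∀ a ∈ A, ∀ z ∈ Z, a * z * a⁻¹ ∈ Z) {z e : G} (hz : z ∈ Z) (he : e ∈ A) :
    ⁅z, e⁆ ∈ Z := by
  have h1 : ⁅z, e⁆ = z * (e * z⁻¹ * e⁻¹) := by
    rw [commutatorElement_def]; group
  rw [h1]
  exact Z.mul_mem hz (hZA e he _ (Z.inv_mem hz))

theorem cA_le {Z A : Subgroup G} (hZA : ∀ a ∈ A, ∀ z ∈ Z, a * z * a⁻¹ ∈ Z) {z : G} (hz : z ∈ Z) :
    cA z A ≤ Z := by
  refine (closure_le _).2 ?_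
  rintro _ ⟨e, he, rfl⟩
  exact comm_mem hZA hz he

theorem comm_mem_cA {A : Subgroup G} (z : G) {e : G} (he : e ∈ A) : ⁅z, e⁆ ∈ cA z A :=
  subset_closure ⟨e, he, rfl⟩

theorem conj_cA {A : Subgroup G} {z c : G} (hc : c ∈ A) {x : G} (hx : x ∈ cA z A) : c * x * c⁻¹ ∈ cA z A := by
  have key : cA z A ≤ (cA z A).comap (MulAut.conj c).toMonoidHom := by
    refine (closure_le _).2 ?_
    rintro _ ⟨e, he, rfl⟩
    show (MulAut.conj c) ⁅z, e⁆ ∈ cA z A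
    have h1 : (MulAut.conj c) ⁅z, e⁆ = ⁅z, c⁆⁻¹ * ⁅z, c * e⁆ := by
      simp only [MulAut.conj_apply, commutatorElement_def]
      group
    rw [h1]
    exact (cA z A).mul_mem ((cA z A).inv_mem (comm_mem_cA z hc)) (comm_mem_cA z (A.mul_mem hc he))
  have := key hx
  simpa [Subgroup.mem_comap, MulAut.conj_apply] using this

theorem comm_comm_mem_cA {A : Subgroup G} {z x c : G} (hx : x ∈ cA z A) (hc : c ∈ A) : ⁅x, c⁆ ∈ cA z A := by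
  have h1 : ⁅x, c⁆ = x * (c * x⁻¹ * c⁻¹) := by
    rw [commutatorElement_def]; group
  rw [h1]
  exact (cA z A).mul_mem hx (conj_cA hc ((cA z A).inv_mem hx))

end ZLevel

open ZLevel

/-- If `[z,A] ≰ A` then any `d ∈ A` with `[z,d] ∈ A` lies in `P`. -/
theorem key_K [Finite G] {S P A Z : Subgroup G} (h : Setup S P A) (h2 : Max2 S P A Z) (hZP : Z ≤ P)
    (hZab : ∀ a ∈ Z, ∀ b ∈ Z, a * b = b * a) (hZA : ∀ a ∈ A, ∀ z ∈ Z, a * z * a⁻¹ ∈ Z) {z : G} (hz : z ∈ Z)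
    {e : G} (he : e ∈ A) (hne : ⁅z, e⁆ ∉ A) {d : G} (hd : d ∈ A) (hzd : ⁅z, d⁆ ∈ A) : d ∈ P := by
  by_contra hdP
  have hWZ : cA z A ≤ Z := cA_le hZA hz
  have hab : ∀ x ∈ cA z A, ∀ y ∈ cA z A, x * y = y * x := fun x hx y hy => hZab x (hWZ hx) y (hWZ hy)
  obtain ⟨K, hK, hKc, hD, -, -⟩ := gen_count h.hA (h.hPS (hZP hz)) hab
  have hKA : K ≤ A := fun x hx => ((hK x).1 hx).1
  have hdK : d ∈ K := (hK d).2 ⟨hd, hzd⟩
  set W := cA z A with hW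
  have hWP : W ≤ P := hWZ.trans hZP
  have hDnP : ¬ (K ⊔ W) ≤ P := fun hle => hdP (hle (mem_sup_left hdK))
  -- counting
  have hcard_D : Nat.card ↥(K ⊔ W) = Nat.card A :=
    le_antisymm (h.hA.max _ hD.le hD.comm) (hD.max _ h.hA.le h.hA.comm)
  have e1 := card_sup_comm (C := K) (W := W) hKc
  have e2 := card_sup_comm (C := K ⊓ P) (W := W) (fun c hc w hw => hKc c hc.1 w hw)
  have e3 : (K ⊓ P) ⊓ W = K ⊓ W := by
    ext x
    simp only [mem_inf]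
    constructor
    · rintro ⟨⟨h1, -⟩, h3⟩; exact ⟨h1, h3⟩
    · rintro ⟨h1, h3⟩; exact ⟨⟨h1, hWP h3⟩, h3⟩
  rw [e3] at e2
  have e4 := card_sup_comm (C := K) (W := A ⊓ P) (fun c hc w hw => h.hA.comm c (hKA hc) w hw.1)
  have e5 : K ⊓ (A ⊓ P) = K ⊓ P := by
    ext x
    simp only [mem_inf]
    constructor
    · rintro ⟨h1, -, h3⟩; exact ⟨h1, h3⟩
    · rintro ⟨h1, h3⟩; exact ⟨h1, hKA h1, h3⟩
  rw [e5] at e4
  have e6 : Nat.card ↥(K ⊔ (A ⊓ P)) ≤ Nat.card A :=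
    Subgroup.card_le_of_le (sup_le hKA inf_le_left)
  have e7 : Nat.card ↥((K ⊓ P) ⊔ W) ≤ Nat.card ↥((K ⊔ W) ⊓ P) :=
    Subgroup.card_le_of_le (le_inf (sup_le_sup_right inf_le_left _) (sup_le inf_le_right hWP))
  have hpos1 : 0 < Nat.card K := Nat.card_pos
  have hpos2 : 0 < Nat.card W := Nat.card_pos
  have hpos3 : 0 < Nat.card ↥(K ⊓ W) := Nat.card_pos
  -- `|A ⊓ P| ≤ |(K ⊓ P) ⊔ W|`
  have e8 : Nat.card ↥(A ⊓ P) ≤ Nat.card ↥((K ⊓ P) ⊔ W) := by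
    have e9 : Nat.card K * Nat.card ↥(A ⊓ P) ≤ Nat.card A * Nat.card ↥(K ⊓ P) := by
      calc Nat.card K * Nat.card ↥(A ⊓ P) = Nat.card ↥(K ⊔ (A ⊓ P)) * Nat.card ↥(K ⊓ P) := e4.symm
        _ ≤ Nat.card A * Nat.card ↥(K ⊓ P) := Nat.mul_le_mul_right _ e6
    have e10 : Nat.card A * Nat.card ↥(K ⊓ P) = Nat.card ↥((K ⊓ P) ⊔ W) * Nat.card K := by
      apply Nat.eq_of_mul_eq_mul_right hpos2
      calc Nat.card A * Nat.card ↥(K ⊓ P) * Nat.card W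
          = Nat.card ↥(K ⊔ W) * (Nat.card ↥(K ⊓ P) * Nat.card W) := by rw [hcard_D]; ring
        _ = Nat.card ↥(K ⊔ W) * (Nat.card ↥((K ⊓ P) ⊔ W) * Nat.card ↥(K ⊓ W)) := by rw [e2]
        _ = Nat.card ↥((K ⊓ P) ⊔ W) * (Nat.card ↥(K ⊔ W) * Nat.card ↥(K ⊓ W)) := by ring
        _ = Nat.card ↥((K ⊓ P) ⊔ W) * (Nat.card K * Nat.card W) := by rw [e1]
        _ = Nat.card ↥((K ⊓ P) ⊔ W) * Nat.card K * Nat.card W := by ring
    rw [e10, mul_comm] at e9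
    exact Nat.le_of_mul_le_mul_right e9 hpos1
  have e11 : Nat.card ↥((K ⊔ W) ⊓ P) = Nat.card ↥(A ⊓ P) :=
    le_antisymm (h.hmax _ hD hDnP) (e8.trans e7)
  have e12 := h2 _ hD hDnP e11
  -- but `A ⊓ Z < D ⊓ Z`
  have hle : A ⊓ Z ≤ (K ⊔ W) ⊓ Z := by
    refine le_inf (fun x hx => mem_sup_left ((hK x).2 ⟨hx.1, ?_⟩)) inf_le_right
    have : ⁅z, x⁆ = 1 := by
      rw [commutatorElement_eq_one_iff_mul_comm]
      exact hZab z hz x hx.2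
    rw [this]
    exact A.one_mem
  have heq : A ⊓ Z = (K ⊔ W) ⊓ Z := Subgroup.eq_of_le_of_card_ge hle e12
  have hmem : ⁅z, e⁆ ∈ (K ⊔ W) ⊓ Z := ⟨mem_sup_right (comm_mem_cA z he), comm_mem hZA hz he⟩
  rw [← heq] at hmem
  exact hne hmem.1

namespace ZLevel

variable {Z A : Subgroup G}

/-- The levels. -/
def N (Z A : Subgroup G) : ℕ → G → Prop
  | 0, x => x ∈ Z ∧ x ∈ A
  | k + 1, x => x ∈ Z ∧ ∀ e ∈ A, N Z A k ⁅x, e⁆

theorem N_mem {k : ℕ} {x : G} (h : N Z A k x) : x ∈ Z := by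
  cases k with
  | zero => exact h.1
  | succ k => exact h.1

theorem N_mono (hA : ∀ a ∈ A, ∀ b ∈ A, a * b = b * a) (k : ℕ) : ∀ {x : G}, N Z A k x → N Z A (k + 1) x := by
  induction k with
  | zero =>
    intro x hx
    refine ⟨hx.1, fun e he => ?_⟩
    have : ⁅x, e⁆ = 1 := by
      rw [commutatorElement_eq_one_iff_mul_comm]
      exact hA x hx.2 e he
    rw [this]
    exact ⟨Z.one_mem, A.one_mem⟩
  | succ k ih =>
    intro x hx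
    exact ⟨hx.1, fun e he => ih (hx.2 e he)⟩

theorem N_mono' (hA : ∀ a ∈ A, ∀ b ∈ A, a * b = b * a) (k : ℕ) {x : G} (h : N Z A 0 x) : N Z A k x := by
  induction k with
  | zero => exact h
  | succ k ih => exact N_mono hA k ih

theorem N_one (k : ℕ) : N Z A k (1 : G) := by
  induction k with
  | zero => exact ⟨Z.one_mem, A.one_mem⟩
  | succ k ih =>
    refine ⟨Z.one_mem, fun e _ => ?_⟩
    rw [commutatorElement_one_left]
    exact ih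

theorem N_mul (hZab : ∀ a ∈ Z, ∀ b ∈ Z, a * b = b * a) (hZA : ∀ a ∈ A, ∀ z ∈ Z, a * z * a⁻¹ ∈ Z) (k : ℕ) :
    ∀ {x y : G}, N Z A k x → N Z A k y → N Z A k (x * y) := by
  induction k with
  | zero =>
    intro x y hx hy
    exact ⟨Z.mul_mem hx.1 hy.1, A.mul_mem hx.2 hy.2⟩
  | succ k ih =>
    intro x y hx hy
    refine ⟨Z.mul_mem hx.1 hy.1, fun e he => ?_⟩
    have h1 : ⁅x * y, e⁆ = ⁅x, e⁆ * ⁅y, e⁆ := by
      have h2 : x * ⁅y, e⁆ = ⁅y, e⁆ * x := hZab x hx.1 _ (comm_mem hZA hy.1 he)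
      have h3 : ⁅x, e⁆ * ⁅y, e⁆ = ⁅y, e⁆ * ⁅x, e⁆ :=
        hZab _ (comm_mem hZA hx.1 he) _ (comm_mem hZA hy.1 he)
      rw [h3]
      have h4 : ⁅x * y, e⁆ = x * ⁅y, e⁆ * x⁻¹ * ⁅x, e⁆ := by
        simp only [commutatorElement_def]; group
      rw [h4, h2]
      group
    rw [h1]
    exact ih (hx.2 e he) (hy.2 e he)

theorem N_inv (hZab : ∀ a ∈ Z, ∀ b ∈ Z, a * b = b * a) (hZA : ∀ a ∈ A, ∀ z ∈ Z, a * z * a⁻¹ ∈ Z) (k : ℕ) :
    ∀ {x : G}, N Z A k x → N Z A k x⁻¹ := by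
  induction k with
  | zero =>
    intro x hx
    exact ⟨Z.inv_mem hx.1, A.inv_mem hx.2⟩
  | succ k ih =>
    intro x hx
    refine ⟨Z.inv_mem hx.1, fun e he => ?_⟩
    have h1 : ⁅x⁻¹, e⁆ = ⁅x, e⁆⁻¹ := by
      have h2 : x⁻¹ * ⁅x, e⁆ = ⁅x, e⁆ * x⁻¹ := hZab _ (Z.inv_mem hx.1) _ (comm_mem hZA hx.1 he)
      have h3 : ⁅x⁻¹, e⁆ = x⁻¹ * ⁅x, e⁆⁻¹ * x := by
        simp only [commutatorElement_def]; group
      rw [h3]
      have h4 : x⁻¹ * ⁅x, e⁆⁻¹ = ⁅x, e⁆⁻¹ * x⁻¹ := hZab _ (Z.inv_mem hx.1) _ (Z.inv_mem (comm_mem hZA hx.1 he))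
      rw [h4]
      group
    rw [h1]
    exact ih (hx.2 e he)

/-- The symmetry inside an abelian invariant subgroup. -/
theorem symm_Z (hZab : ∀ a ∈ Z, ∀ b ∈ Z, a * b = b * a) (hZA : ∀ a ∈ A, ∀ z ∈ Z, a * z * a⁻¹ ∈ Z)
    (hA : ∀ a ∈ A, ∀ b ∈ A, a * b = b * a) {t e d : G} (ht : t ∈ Z) (he : e ∈ A) (hd : d ∈ A) :
    ⁅⁅t, e⁆, d⁆ = ⁅⁅t, d⁆, e⁆ := by
  have m1 := comm_mem hZA ht he
  have m2 := comm_mem hZA ht hd
  exact comm_symm (hA e he d hd) (hZab _ m1 _ m2) (hZab _ m2 _ (comm_mem hZA m1 hd))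
    (hZab _ m1 _ (comm_mem hZA m2 he))

/-- The free claim. -/
theorem free_claim [Finite G] {S P : Subgroup G} (h : Setup S P A) (h2 : Max2 S P A Z) (hZP : Z ≤ P)
    (hZab : ∀ a ∈ Z, ∀ b ∈ Z, a * b = b * a) (hZA : ∀ a ∈ A, ∀ z ∈ Z, a * z * a⁻¹ ∈ Z) {d : G} (hd : d ∈ A)
    (hdP : d ∉ P) (k : ℕ) : ∀ {t : G}, N Z A (k + 2) t → N Z A k ⁅t, d⁆ → N Z A (k + 1) t := by
  induction k with
  | zero =>
    intro t ht htd
    refine ⟨N_mem ht, fun e he => ⟨comm_mem hZA (N_mem ht) he, ?_⟩⟩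
    by_contra hne
    exact hdP (key_K h h2 hZP hZab hZA (N_mem ht) he hne hd htd.2)
  | succ k ih =>
    intro t ht htd
    refine ⟨N_mem ht, fun e he => ?_⟩
    have h1 : N Z A (k + 2) ⁅t, e⁆ := ht.2 e he
    have h3 : N Z A k ⁅⁅t, e⁆, d⁆ := by
      rw [symm_Z hZab hZA h.hA.comm (N_mem ht) he hd]
      exact htd.2 e he
    exact ih h1 h3

end ZLevel

/-- `[[z,b],c] = [z,c₁] w` with `c₁ ∈ A ⊓ P`, `w ∈ Z ⊓ A`. -/
theorem z_cubic [Finite G] {p : ℕ} [Fact p.Prime] {S P A Z : Subgroup G} (hS : IsPGroup p S) (h : Setup S P A) (h2 : Max2 S P A Z)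
    (hZP : Z ≤ P) (hZab : ∀ a ∈ Z, ∀ b ∈ Z, a * b = b * a) (hZA : ∀ a ∈ A, ∀ z ∈ Z, a * z * a⁻¹ ∈ Z) {z : G} (hz : z ∈ Z)
    {b c : G} (hb : b ∈ A) (hc : c ∈ A) : ∃ c₁ ∈ A ⊓ P, ∃ w ∈ Z ⊓ A, ⁅⁅z, b⁆, c⁆ = ⁅z, c₁⁆ * w := by
  classical
  have hAab := h.hA.comm
  -- every element of `Z` is in a level
  have hex : ∃ k, N Z A k z := by
    obtain ⟨n, hn⟩ := iter_eventually_bot (W := Z) (A := A) hS (hZP.trans h.hPS) h.hA.le
    have hle : ∀ j, iterCommutator Z A j ≤ Z := by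
      intro j
      induction j with
      | zero => exact le_rfl
      | succ j ih =>
        refine commutator_le.2 fun x hx e he => ?_
        exact comm_mem hZA (ih hx) he
    have key : ∀ m j, iterCommutator Z A (j + m) = ⊥ → ∀ x ∈ iterCommutator Z A j, N Z A m x := by
      intro m
      induction m with
      | zero =>
        intro j hj x hx
        rw [add_zero] at hj
        rw [hj, mem_bot] at hx
        rw [hx]
        exact N_one 0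
      | succ m ih =>
        intro j hj x hx
        refine ⟨hle j hx, fun e he => ?_⟩
        refine ih (j + 1) (by rwa [show j + 1 + m = j + (m + 1) by ring]) _ ?_
        exact commutator_mem_commutator hx he
    exact ⟨n, key n 0 (by simpa using hn) z hz⟩
  set k := Nat.find hex with hk
  have hkz : N Z A k z := Nat.find_spec hex
  have hone : ∃ c₁ ∈ A ⊓ P, ∃ w ∈ Z ⊓ A, (1 : G) = ⁅z, c₁⁆ * w :=
    ⟨1, one_mem _, 1, one_mem _, by simp⟩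
  -- the case of level at most one
  have hlow : N Z A 1 z → ∃ c₁ ∈ A ⊓ P, ∃ w ∈ Z ⊓ A, ⁅⁅z, b⁆, c⁆ = ⁅z, c₁⁆ * w := by
    intro h1
    have h3 : ⁅⁅z, b⁆, c⁆ = 1 := by
      rw [commutatorElement_eq_one_iff_mul_comm]
      exact hAab _ (h1.2 b hb).2 c hc
    rw [h3]
    exact hone
  match hkk : k, hkz with
  | 0, h0 => exact hlow (N_mono hAab 0 h0)
  | 1, h1 => exact hlow h1
  | j + 2, hj =>
    have hnot : ¬ N Z A (j + 1) z := by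
      have := Nat.find_min hex (m := j + 1) (by first | omega | (rw [← hk, hkk]; omega) | (rw [← hk]; omega))
      exact this
    have hWZ : cA z A ≤ Z := cA_le hZA hz
    have hab : ∀ x ∈ cA z A, ∀ y ∈ cA z A, x * y = y * x := fun x hx y hy => hZab x (hWZ hx) y (hWZ hy)
    obtain ⟨K, -, -, -, hdec, -⟩ := gen_count h.hA (h.hPS (hZP hz)) hab
    obtain ⟨d, hd, w, hw, hww⟩ := hdec _ (comm_comm_mem_cA (comm_mem_cA z hb) hc)
    have hwN : N Z A j w := N_mono' hAab j ⟨hWZ hw.1, hw.2⟩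
    have hlev : N Z A j ⁅⁅z, b⁆, c⁆ := (hj.2 b hb).2 c hc
    have hzd : N Z A j ⁅z, d⁆ := by
      have : ⁅z, d⁆ = ⁅⁅z, b⁆, c⁆ * w⁻¹ := by rw [hww]; group
      rw [this]
      exact N_mul hZab hZA j hlev (N_inv hZab hZA j hwN)
    have hdP : d ∈ P := by
      by_contra hdP
      exact hnot (free_claim h h2 hZP hZab hZA hd hdP j hj hzd)
    exact ⟨d, ⟨hd, hdP⟩, w, ⟨hWZ hw.1, hw.2⟩, hww⟩

end Cfsg.Agent.Lib.JTrans
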