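import Mathlib
import Cfsg.Agent.Lib.JTrans.Count
import Cfsg.Agent.Lib.JTrans.ZLevel
import Cfsg.Agent.Lib.JTrans.TCubic

/-!
# The case `Z ≰ N(A)` for `N(J(S))` controlling transfer (S3068, piece C2)
-/

set_option autoImplicit false
namespace Cfsg.Agent.Lib.JTrans
open Subgroup Cfsg
open scoped commutatorElement
variable {G : Type*} [Group G]

namespace Case2

/-- The elements of `B` whose commutators with `A` lie in `N`, for `N` normalized by `B`. -/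
def relD (B N A : Subgroup G) (hN : ∀ x ∈ B, ∀ n ∈ N, x * n * x⁻¹ ∈ N) : Subgroup G where
  carrier := {x | x ∈ B ∧ ∀ c ∈ A, ⁅x, c⁆ ∈ N}
  mul_mem' := by
    rintro x y ⟨hx, hx'⟩ ⟨hy, hy'⟩
    refine ⟨B.mul_mem hx hy, fun c hc => ?_⟩
    have e : ⁅x * y, c⁆ = x * ⁅y, c⁆ * x⁻¹ * ⁅x, c⁆ := by
      simp only [commutatorElement_def]; group
    rw [e]
    exact N.mul_mem (hN x hx _ (hy' c hc)) (hx' c hc)
  one_mem' := ⟨B.one_mem, fun c _ => by simp [commutatorElement_def, N.one_mem]⟩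
  inv_mem' := by
    rintro x ⟨hx, hx'⟩
    refine ⟨B.inv_mem hx, fun c hc => ?_⟩
    have e : ⁅x⁻¹, c⁆ = x⁻¹ * ⁅x, c⁆⁻¹ * (x⁻¹)⁻¹ := by
      simp only [commutatorElement_def]; group
    rw [e]
    exact hN x⁻¹ (B.inv_mem hx) _ (N.inv_mem (hx' c hc))

theorem mem_relD {B N A : Subgroup G} {hN : ∀ x ∈ B, ∀ n ∈ N, x * n * x⁻¹ ∈ N} {x : G} :
    x ∈ relD B N A hN ↔ x ∈ B ∧ ∀ c ∈ A, ⁅x, c⁆ ∈ N := Iff.rfl

/-- `⁅z, a⁆ ∈ Z` for `z ∈ Z`, when `a` normalizes `Z`. -/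
theorem comm_mem {Z A : Subgroup G} (hZA : ∀ a ∈ A, ∀ z ∈ Z, a * z * a⁻¹ ∈ Z) {z a : G} (hz : z ∈ Z) (ha : a ∈ A) :
    ⁅z, a⁆ ∈ Z := by
  have e : ⁅z, a⁆ = z * (a * z⁻¹ * a⁻¹) := by
    simp only [commutatorElement_def]; group
  rw [e]
  exact Z.mul_mem hz (hZA a ha _ (Z.inv_mem hz))

theorem iter_le {Z A : Subgroup G} (hZA : ∀ a ∈ A, ∀ z ∈ Z, a * z * a⁻¹ ∈ Z) (k : ℕ) :
    iterCommutator Z A k ≤ Z := by
  induction k with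
  | zero => exact le_rfl
  | succ k ih =>
    show ⁅iterCommutator Z A k, A⁆ ≤ Z
    rw [Subgroup.commutator_le]
    intro x hx a ha
    exact comm_mem hZA (ih hx) ha

/-- Walking down: a `t ∈ Z` with `⁅t, A⁆ ≰ A`, `⁅t, A, A⁆ ≤ A`. -/
theorem exists_top [Finite G] {p : ℕ} [Fact p.Prime] {S A Z : Subgroup G} (hS : IsPGroup p S) (hZS : Z ≤ S) (hAS : A ≤ S)
    (hZA : ∀ a ∈ A, ∀ z ∈ Z, a * z * a⁻¹ ∈ Z) (hZ2 : ¬ ∀ z ∈ Z, ∀ a ∈ A, ⁅z, a⁆ ∈ A) :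
    ∃ t ∈ Z, (∃ e ∈ A, ⁅t, e⁆ ∉ A) ∧ ∀ a ∈ A, ∀ b ∈ A, ⁅⁅t, a⁆, b⁆ ∈ A := by
  classical
  let Q : ℕ → Prop := fun k => ∃ t ∈ iterCommutator Z A k, ∃ e ∈ A, ⁅t, e⁆ ∉ A
  have hQ0 : Q 0 := by
    push Not at hZ2
    obtain ⟨z, hz, a, ha, hza⟩ := hZ2
    exact ⟨z, hz, a, ha, hza⟩
  obtain ⟨k, hk⟩ := iter_eventually_bot hS hZS hAS
  have hQk : ∃ k, ¬ Q k := by
    refine ⟨k, ?_⟩
    rintro ⟨t, ht, e, he, hne⟩
    rw [hk, Subgroup.mem_bot] at ht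
    subst ht
    apply hne
    simp [commutatorElement_def, A.one_mem]
  have hm := Nat.find_spec hQk
  have hm0 : Nat.find hQk ≠ 0 := by
    intro h0
    rw [h0] at hm
    exact hm hQ0
  obtain ⟨m, hm'⟩ := Nat.exists_eq_succ_of_ne_zero hm0
  have hlt : m < Nat.find hQk := by omega
  have hQm : Q m := by
    have := Nat.find_min hQk hlt
    exact not_not.mp this
  obtain ⟨t, ht, e, he, hne⟩ := hQm
  refine ⟨t, iter_le hZA m ht, ⟨e, he, hne⟩, fun a ha b hb => ?_⟩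
  rw [hm'] at hm
  by_contra hcon
  apply hm
  refine ⟨⁅t, a⁆, ?_, b, hb, hcon⟩
  show ⁅t, a⁆ ∈ ⁅iterCommutator Z A m, A⁆
  exact Subgroup.commutator_mem_commutator ht ha

end Case2

open Case2

theorem case2_T [Finite G] {p : ℕ} [Fact p.Prime] {S P A B Z : Subgroup G} (hS : IsPGroup p S) (h : Setup S P A) (h2 : Max2 S P A Z)
    (hBP : B ≤ P) (hZB : Z ≤ B) (hZc : ∀ z ∈ Z, ∀ y ∈ B, z * y = y * z)
    (hPB : ∀ x ∈ P, ∀ y ∈ B, ⁅y, x⁆ ∈ Z) (hBA : ∀ a ∈ A, ∀ y ∈ B, a * y * a⁻¹ ∈ B)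
    (hZA : ∀ a ∈ A, ∀ z ∈ Z, a * z * a⁻¹ ∈ Z) (hZ2 : ¬ ∀ z ∈ Z, ∀ a ∈ A, ⁅z, a⁆ ∈ A) :
    iterCommutator B A 3 ≤ Z := by
  have hZP : Z ≤ P := hZB.trans hBP
  have hZS : Z ≤ S := hZP.trans h.hPS
  have hAS : A ≤ S := h.hA.le
  have hZab : ∀ a ∈ Z, ∀ b ∈ Z, a * b = b * a := fun a ha b hb => hZc a ha b (hZB hb)
  obtain ⟨t, htZ, ⟨e, he, hne⟩, htq⟩ := exists_top hS hZS hAS hZA hZ2
  -- `U = cA t A`
  have hUZ : cA t A ≤ Z := by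
    unfold cA
    rw [Subgroup.closure_le]
    rintro x ⟨a, ha, rfl⟩
    exact comm_mem hZA htZ ha
  have hab : ∀ x ∈ cA t A, ∀ y ∈ cA t A, x * y = y * x := fun x hx y hy =>
    hZab x (hUZ hx) y (hUZ hy)
  obtain ⟨K, hK, -, hD, -, -⟩ := gen_count h.hA (hZS htZ) hab
  have hKA : K ≤ A ⊓ P := by
    intro d hd
    obtain ⟨hdA, hdt⟩ := (hK d).1 hd
    exact ⟨hdA, key_K h h2 hZP hZab hZA htZ he hne hdA hdt⟩
  -- `N¹`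
  have hN1 : ∀ x ∈ Z, ∀ n ∈ Z ⊓ A, x * n * x⁻¹ ∈ Z ⊓ A := by
    intro x hx n hn
    rw [hZab x hx n hn.1, mul_inv_cancel_right]
    exact hn
  have hUN : cA t A ≤ relD Z (Z ⊓ A) A hN1 := by
    unfold cA
    rw [Subgroup.closure_le]
    rintro x ⟨a, ha, rfl⟩
    refine ⟨comm_mem hZA htZ ha, fun b hb => ⟨comm_mem hZA (comm_mem hZA htZ ha) hb, htq a ha b hb⟩⟩
  have hUq : ∀ u ∈ cA t A, ∀ a ∈ A, ∀ b ∈ A, ⁅⁅u, a⁆, b⁆ = 1 := by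
    intro u hu a ha b hb
    have := (hUN hu).2 a ha
    rw [commutatorElement_eq_one_iff_mul_comm]
    exact h.hA.comm _ this.2 _ hb
  -- the quartic relation on `B`
  have hcub : ∀ y ∈ B, ∀ b ∈ A, ∀ b' ∈ A, ∀ b'' ∈ A, ⁅⁅⁅y, b⁆, b'⁆, b''⁆ ∈ Z := by
    intro y hy b hb b' hb' b'' hb''
    obtain ⟨f, hf, z, hz, hfz⟩ := t_cubic h.hA h.hPS hKA hUZ hD hUq hZab hZA hBP hZB hZc hPB hBA hy hb hb'
    rw [hfz]
    have e1 : ⁅f * z, b''⁆ = f * ⁅z, b''⁆ * f⁻¹ * ⁅f, b''⁆ := by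
      simp only [commutatorElement_def]; group
    have e2 : ⁅f, b''⁆ = 1 := by
      rw [commutatorElement_eq_one_iff_mul_comm]
      exact h.hA.comm _ hf.1 _ hb''
    rw [e1, e2, mul_one]
    have hzb : ⁅z, b''⁆ ∈ Z := comm_mem hZA hz hb''
    rw [← hZc _ hzb f hf.2, mul_inv_cancel_right]
    exact hzb
  -- generation
  have hBB : ∀ x ∈ B, ∀ y ∈ B, ⁅y, x⁆ ∈ Z := fun x hx y hy => hPB x (hBP hx) y hy
  have hconjZ : ∀ x ∈ B, ∀ n ∈ Z, x * n * x⁻¹ ∈ Z := by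
    intro x hx n hn
    rw [← hZc n hn x hx, mul_inv_cancel_right]
    exact hn
  let M₂ : Subgroup G := relD B Z A hconjZ
  have hZM₂ : Z ≤ M₂ := fun z hz => ⟨hZB hz, fun c hc => comm_mem hZA hz hc⟩
  have hconjM₂ : ∀ x ∈ B, ∀ n ∈ M₂, x * n * x⁻¹ ∈ M₂ := by
    intro x hx n hn
    have e : x * n * x⁻¹ = ⁅x, n⁆ * n := by
      simp only [commutatorElement_def]; group
    rw [e]
    exact M₂.mul_mem (hZM₂ (hBB n hn.1 x hx)) hn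
  let M₁ : Subgroup G := relD B M₂ A hconjM₂
  have hcomm_B : ∀ y ∈ B, ∀ a ∈ A, ⁅y, a⁆ ∈ B := fun y hy a ha => comm_mem hBA hy ha
  have h1 : ⁅B, A⁆ ≤ M₁ := by
    rw [Subgroup.commutator_le]
    intro y hy b hb
    refine ⟨hcomm_B y hy b hb, fun c hc => ⟨hcomm_B _ (hcomm_B y hy b hb) c hc, fun c' hc' => hcub y hy b hb c hc c' hc'⟩⟩
  have h2' : ⁅⁅B, A⁆, A⁆ ≤ M₂ := by
    rw [Subgroup.commutator_le]
    intro x hx c hc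
    exact (h1 hx).2 c hc
  show ⁅⁅⁅B, A⁆, A⁆, A⁆ ≤ Z
  rw [Subgroup.commutator_le]
  intro x hx c hc
  exact (h2' hx).2 c hc

theorem case2_chief [Finite G] {p : ℕ} [Fact p.Prime] {S P A Z U V : Subgroup G} (hS : IsPGroup p S) (h : Setup S P A) (h2 : Max2 S P A Z)
    (hZP : Z ≤ P) (hZab : ∀ a ∈ Z, ∀ b ∈ Z, a * b = b * a) (hZA : ∀ a ∈ A, ∀ z ∈ Z, a * z * a⁻¹ ∈ Z)
    (hUZ : U ≤ Z) (hVU : V ≤ U) (hUA : ∀ a ∈ A, ∀ u ∈ U, a * u * a⁻¹ ∈ U) (hVA : ∀ a ∈ A, ∀ v ∈ V, a * v * a⁻¹ ∈ V)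
    (hUP : ∀ u ∈ U, ∀ x ∈ P, ⁅u, x⁆ ∈ V) : iterCommutator U A 3 ≤ V := by
  have hUab : ∀ a ∈ U, ∀ b ∈ U, a * b = b * a := fun a ha b hb => hZab a (hUZ ha) b (hUZ hb)
  -- `V ⊔ (U ⊓ A) ≤ U`, the target of the double commutator
  have hWU : V ⊔ (U ⊓ A) ≤ U := sup_le hVU inf_le_left
  have hconjW : ∀ x ∈ U, ∀ n ∈ V ⊔ (U ⊓ A), x * n * x⁻¹ ∈ V ⊔ (U ⊓ A) := by
    intro x hx n hn
    rw [hUab x hx n (hWU hn), mul_inv_cancel_right]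
    exact hn
  have hconjV : ∀ x ∈ U, ∀ n ∈ V, x * n * x⁻¹ ∈ V := by
    intro x hx n hn
    rw [hUab x hx n (hVU hn), mul_inv_cancel_right]
    exact hn
  -- `⁅V ⊔ (U ⊓ A), A⁆ ≤ V`
  have h3 : V ⊔ (U ⊓ A) ≤ relD U V A hconjV := by
    apply sup_le
    · intro v hv
      exact ⟨hVU hv, fun c hc => comm_mem hVA hv hc⟩
    · intro w hw
      refine ⟨hw.1, fun c hc => ?_⟩
      have : ⁅w, c⁆ = 1 := by
        rw [commutatorElement_eq_one_iff_mul_comm]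
        exact h.hA.comm _ hw.2 _ hc
      rw [this]
      exact V.one_mem
  -- the cubic relation on `U`
  have hcub : ∀ u ∈ U, ∀ b ∈ A, ∀ c ∈ A, ⁅⁅u, b⁆, c⁆ ∈ V ⊔ (U ⊓ A) := by
    intro u hu b hb c hc
    obtain ⟨c₁, hc₁, w, hw, e⟩ := z_cubic hS h h2 hZP hZab hZA (hUZ hu) hb hc
    have hv : ⁅u, c₁⁆ ∈ V := hUP u hu c₁ hc₁.2
    have hlhs : ⁅⁅u, b⁆, c⁆ ∈ U := comm_mem hUA (comm_mem hUA hu hb) hc
    have hwU : w ∈ U := by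
      have e' : w = ⁅u, c₁⁆⁻¹ * ⁅⁅u, b⁆, c⁆ := by rw [e]; group
      rw [e']
      exact U.mul_mem (U.inv_mem (hVU hv)) hlhs
    rw [e]
    exact Subgroup.mul_mem _ (Subgroup.mem_sup_left hv) (Subgroup.mem_sup_right ⟨hwU, hw.2⟩)
  have h1 : ⁅U, A⁆ ≤ relD U (V ⊔ (U ⊓ A)) A hconjW := by
    rw [Subgroup.commutator_le]
    intro u hu b hb
    exact ⟨comm_mem hUA hu hb, fun c hc => hcub u hu b hb c hc⟩
  have h2' : ⁅⁅U, A⁆, A⁆ ≤ V ⊔ (U ⊓ A) := by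
    rw [Subgroup.commutator_le]
    intro x hx c hc
    exact (h1 hx).2 c hc
  show ⁅⁅⁅U, A⁆, A⁆, A⁆ ≤ V
  rw [Subgroup.commutator_le]
  intro x hx c hc
  exact (h3 (h2' hx)).2 c hc

end Cfsg.Agent.Lib.JTrans
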