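import Mathlib
import Cfsg.Agent.Lib.JTrans.Defs
import Cfsg.Agent.Lib.JTrans.ZLevel
import Cfsg.Agent.Lib.PGroup.KInf
import Cfsg.Agent.Lib.PGroup.Critical
import Cfsg.Agent.Lib.PGroup.KInfMain
import Cfsg.Agent.Lib.Basic.PCore

/-!
# Choosing the data for `N(J(S))` controls transfer
-/

set_option autoImplicit false

namespace Cfsg.Agent.Lib.JTrans

open Subgroup Cfsg
open scoped commutatorElement

variable {G : Type*} [Group G]

/-- Description of the Thompson subgroup in `G`. -/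
theorem mem_maxAbelian_iff {S A : Subgroup G} [Finite G] (hAS : A ≤ S) :
    A.subgroupOf S ∈ maxAbelianSubgroups S ↔ IsMaxAb S A := by
  have hcard : Nat.card (A.subgroupOf S) = Nat.card A :=
    Nat.card_congr (Subgroup.subgroupOfEquivOfLe hAS).toEquiv
  constructor
  · rintro ⟨hc, hm⟩
    refine ⟨hAS, ?_, ?_⟩
    · intro a ha b hb
      have h1 := hc.is_comm.comm (⟨⟨a, hAS ha⟩, by simpa [Subgroup.mem_subgroupOf] using ha⟩ : A.subgroupOf S)
        ⟨⟨b, hAS hb⟩, by simpa [Subgroup.mem_subgroupOf] using hb⟩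
      have h2 := congrArg (fun x : A.subgroupOf S => ((x : S) : G)) h1
      simpa using h2
    · intro M hMS hMc
      have h1 := hm (M.subgroupOf S) ⟨⟨fun x y => by
        apply Subtype.ext
        apply Subtype.ext
        exact hMc _ (Subgroup.mem_subgroupOf.1 x.2) _ (Subgroup.mem_subgroupOf.1 y.2)⟩⟩
      rwa [hcard, Nat.card_congr (Subgroup.subgroupOfEquivOfLe hMS).toEquiv] at h1
  · intro h
    refine ⟨⟨⟨fun x y => ?_⟩⟩, fun B hB => ?_⟩
    · apply Subtype.ext
      apply Subtype.ext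
      exact h.comm _ (Subgroup.mem_subgroupOf.1 x.2) _ (Subgroup.mem_subgroupOf.1 y.2)
    · have h1 := h.max (B.map S.subtype) (Subgroup.map_subtype_le B) (by
        rintro _ ⟨a, ha, rfl⟩ _ ⟨b, hb, rfl⟩
        have h2 := hB.is_comm.comm (⟨a, ha⟩ : B) ⟨b, hb⟩
        have h3 := congrArg (fun x : B => ((x : S) : G)) h2
        simpa using h3)
      have h4 : Nat.card (B.map S.subtype) = Nat.card B :=
        Nat.card_congr (Subgroup.equivMapOfInjective B S.subtype S.subtype_injective).symm.toEquiv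
      rwa [hcard, ← h4]

theorem thompson_eq_sSup [Finite G] {S : Subgroup G} :
    thompsonSubgroupAOf S = sSup {A | IsMaxAb S A} := by
  apply le_antisymm
  · unfold thompsonSubgroupAOf thompsonSubgroupA
    rw [Subgroup.map_le_iff_le_comap]
    apply sSup_le
    intro B hB
    rw [← Subgroup.map_le_iff_le_comap]
    apply le_sSup
    show IsMaxAb S _
    rw [← mem_maxAbelian_iff (Subgroup.map_subtype_le B)]
    have h2 : (B.map S.subtype).subgroupOf S = B :=
      Subgroup.comap_map_eq_self_of_injective S.subtype_injective B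
    rwa [h2]
  · apply sSup_le
    intro A hA
    have h1 : A = (A.subgroupOf S).map S.subtype := (Subgroup.map_subgroupOf_eq_of_le hA.le).symm
    rw [h1]
    apply Subgroup.map_mono
    apply le_sSup
    exact (mem_maxAbelian_iff hA.le).2 hA

/-- If `J(S)` is not normal, some `A ∈ 𝒜(S)` is outside the normal subgroup `P ≤ S`. -/
theorem exists_out [Finite G] {S P : Subgroup G} [hP : P.Normal] (hPS : P ≤ S)
    (hJ : ¬ (thompsonSubgroupAOf S).Normal) : ∃ A, IsMaxAb S A ∧ ¬ A ≤ P := by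
  by_contra hcon
  push Not at hcon
  apply hJ
  rw [thompson_eq_sSup]
  constructor
  intro n hn g
  have h1 : sSup {A | IsMaxAb S A} ≤ (sSup {A | IsMaxAb S A}).comap (MulAut.conj g).toMonoidHom := by
    apply sSup_le
    intro A hA a ha
    change (MulAut.conj g) a ∈ sSup {A | IsMaxAb S A}
    have hAP : A ≤ P := hcon A hA
    have hB : IsMaxAb S (A.map (MulAut.conj g).toMonoidHom) := by
      refine ⟨?_, ?_, ?_⟩
      · rintro _ ⟨x, hx, rfl⟩
        exact hPS (hP.conj_mem x (hAP hx) g)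
      · rintro _ ⟨x, hx, rfl⟩ _ ⟨y, hy, rfl⟩
        have h2 := hA.comm x hx y hy
        simp only [MulEquiv.coe_toMonoidHom, ← map_mul, h2]
      · intro M hMS hMc
        have h2 := hA.max M hMS hMc
        have h3 : Nat.card (A.map (MulAut.conj g).toMonoidHom) = Nat.card A :=
          Nat.card_congr (Subgroup.equivMapOfInjective A _ (MulAut.conj g).injective).symm.toEquiv
        rwa [h3]
    exact (le_sSup hB : _ ≤ sSup {A | IsMaxAb S A}) ⟨a, ha, rfl⟩
  have h2 := h1 hn
  simpa [MulAut.conj_apply] using h2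

/-- Lexicographically maximal choice. -/
theorem exists_setup [Finite G] {S P Z : Subgroup G} [hP : P.Normal] (hPS : P ≤ S)
    (hJ : ¬ (thompsonSubgroupAOf S).Normal) : ∃ A, Setup S P A ∧ Max2 S P A Z := by
  classical
  let s : Set (Subgroup G) := {A | IsMaxAb S A ∧ ¬ A ≤ P}
  have hne : s.Nonempty := exists_out hPS hJ
  let N := Nat.card G
  let f : Subgroup G → ℕ := fun A => Nat.card ↥(A ⊓ P) * (N + 1) + Nat.card ↥(A ⊓ Z)
  obtain ⟨A, hA, hmax⟩ := Set.exists_max_image s f (Set.toFinite s) hne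
  have hZle : ∀ B : Subgroup G, Nat.card ↥(B ⊓ Z) ≤ N := fun B => Subgroup.card_le_card_group _
  refine ⟨A, ⟨hA.1, hPS, fun s' _ x hx => hP.conj_mem x hx s', hA.2, ?_⟩, ?_⟩
  · intro A' hA' hA'P
    by_contra hlt
    push Not at hlt
    have h1 := hmax A' ⟨hA', hA'P⟩
    have h2 := hZle A
    have h3 : (Nat.card ↥(A ⊓ P) + 1) * (N + 1) ≤ Nat.card ↥(A' ⊓ P) * (N + 1) :=
      Nat.mul_le_mul_right _ hlt
    simp only [f] at h1
    nlinarith
  · intro A' hA' hA'P heq
    have h1 := hmax A' ⟨hA', hA'P⟩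
    simp only [f, heq] at h1
    omega

/-- Critical subgroup data. -/
theorem exists_critical_data [Finite G] (p : ℕ) [Fact p.Prime] :
    ∃ B : Subgroup G, B.Normal ∧ B ≤ pCore p G ∧
    ⁅pCore p G, B⁆ ≤ B ⊓ centralizer (B : Set G) ∧
    pCore p G ⊓ centralizer (B : Set G) ≤ B ⊓ centralizer (B : Set G) ∧
    ∀ x ∈ B, ∀ y ∈ B, ⁅x, y⁆ ∈ pCore p G ⊓ centralizer ((pCore p G : Subgroup G) : Set G) := by
  have hTn : (pCore p G).Normal := Cfsg.Agent.Lib.Basic.PCore.pCore_normal p G
  have hTp : IsPGroup p (pCore p G) := Cfsg.Agent.Lib.Basic.PCore.pCore_isPGroup p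
  obtain ⟨H, hHchar, hH1, hH2, hH3⟩ := Cfsg.Agent.Lib.PGroup.Critical.exists_critical hTp
  let A : Subgroup G := H.map (pCore p G).subtype
  have hAT : A ≤ pCore p G := Subgroup.map_subtype_le H
  have hsub : A.subgroupOf (pCore p G) = H :=
    Subgroup.comap_map_eq_self_of_injective (pCore p G).subtype_injective H
  have hAchar : (A.subgroupOf (pCore p G)).Characteristic := by rw [hsub]; exact hHchar
  have hAn : A.Normal := Cfsg.Agent.Lib.PGroup.KInfMain.normal_of_char _ A hAT hAchar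
  have hmapT : (⊤ : Subgroup ↥(pCore p G)).map (pCore p G).subtype = pCore p G := by
    rw [← MonoidHom.range_eq_map, Subgroup.range_subtype]
  have hA3 : ⁅pCore p G, A⁆ ≤ A ⊓ centralizer (A : Set G) := by
    rw [Subgroup.commutator_comm, Cfsg.Agent.Lib.PGroup.KInf.map_center_eq]
    conv_lhs => rw [← hmapT]
    rw [← Subgroup.map_commutator]
    exact Subgroup.map_mono hH2
  have hA4 : pCore p G ⊓ centralizer (A : Set G) ≤ A ⊓ centralizer (A : Set G) := by
    rintro x ⟨hx1, hx2⟩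
    refine ⟨?_, hx2⟩
    have hx3 : (⟨x, hx1⟩ : pCore p G) ∈ centralizer (H : Set ↥(pCore p G)) := by
      rw [mem_centralizer_iff]
      intro h hh
      apply Subtype.ext
      exact mem_centralizer_iff.mp hx2 (h : G) ⟨h, hh, rfl⟩
    exact ⟨_, hH3 hx3, rfl⟩
  refine ⟨A, hAn, hAT, hA3, hA4, ?_⟩
  have h1 : ⁅⁅A, pCore p G⁆, A⁆ = ⊥ := by
    rw [Subgroup.commutator_eq_bot_iff_le_centralizer, Subgroup.commutator_comm]
    exact hA3.trans inf_le_right
  have h2 : ⁅⁅pCore p G, A⁆, A⁆ = ⊥ := by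
    rw [Subgroup.commutator_eq_bot_iff_le_centralizer]
    exact hA3.trans inf_le_right
  have h3 := Subgroup.commutator_commutator_eq_bot_of_rotate h1 h2
  intro x hx y hy
  have hxy : ⁅x, y⁆ ∈ ⁅A, A⁆ := Subgroup.commutator_mem_commutator hx hy
  refine Subgroup.mem_inf.2 ⟨?_, ?_⟩
  · exact (Subgroup.commutator_le_right A A |>.trans hAT) hxy
  · rw [mem_centralizer_iff]
    intro q hq
    have h4 : ⁅⁅x, y⁆, q⁆ = 1 := by
      have h5 : ⁅⁅x, y⁆, q⁆ ∈ ⁅⁅A, A⁆, pCore p G⁆ := Subgroup.commutator_mem_commutator hxy hq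
      rw [h3] at h5
      exact (Subgroup.mem_bot).1 h5
    rw [commutatorElement_eq_one_iff_commute] at h4
    exact h4.symm.eq

end Cfsg.Agent.Lib.JTrans
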