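import Mathlib
import Cfsg.Agent.Lib.PGroup.KInfQuartic
import Cfsg.Agent.Lib.JTrans.Defs

/-!
# The Engel action on chief factors from the action on a critical subgroup

Exponent version of `KInfQuartic.quartic_step`, `quartic_filter`, `quartic_main`.
-/

set_option autoImplicit false
set_option linter.style.haveILetI false

namespace Cfsg.Agent.Lib.JTrans

open Subgroup Cfsg Cfsg.Agent.Lib.PGroup.ChiefAct Cfsg.Agent.Lib.PGroup.KInfQuartic
open scoped commutatorElement

variable {G : Type*} [Group G]

namespace EngelF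

theorem iter_succ (N D : Subgroup G) (k : ℕ) :
    iterCommutator N D (k + 1) = ⁅iterCommutator N D k, D⁆ := rfl

theorem iter_mono {N N' : Subgroup G} (D : Subgroup G) (h : N ≤ N') (k : ℕ) :
    iterCommutator N D k ≤ iterCommutator N' D k := by
  induction k with
  | zero => exact h
  | succ k ih =>
    rw [iter_succ, iter_succ]
    exact Subgroup.commutator_mono ih le_rfl

theorem iter_succ_le (N D : Subgroup G) [hN : N.Normal] (k : ℕ) :
    iterCommutator N D (k + 1) ≤ iterCommutator N D k := by
  induction k with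
  | zero => exact Subgroup.commutator_le_left N D
  | succ k ih =>
    rw [iter_succ, iter_succ]
    exact Subgroup.commutator_mono ih le_rfl

theorem iter_le_of_le (N D : Subgroup G) [hN : N.Normal] {i j : ℕ} (h : i ≤ j) :
    iterCommutator N D j ≤ iterCommutator N D i := by
  induction j, h using Nat.le_induction with
  | base => exact le_rfl
  | succ j _ ih => exact (iter_succ_le N D j).trans ih

theorem iter_le (N D : Subgroup G) [hN : N.Normal] (k : ℕ) : iterCommutator N D k ≤ N :=
  iter_le_of_le N D (Nat.zero_le k)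

theorem map_iter {H : Type*} [Group H] (f : G →* H) (N D : Subgroup G) (k : ℕ) :
    (iterCommutator N D k).map f = iterCommutator (N.map f) (D.map f) k := by
  induction k with
  | zero => rfl
  | succ k ih =>
    rw [iter_succ, iter_succ, Subgroup.map_commutator, ih]

/-- The commutator of a sup with a normal subgroup. -/
theorem sup_comm_le {W' H D : Subgroup G} [hW' : W'.Normal] : ⁅W' ⊔ H, D⁆ ≤ W' ⊔ ⁅H, D⁆ := by
  rw [Subgroup.commutator_le]
  intro x hx d hd
  rw [sup_comm] at hx
  obtain ⟨h, hh, w, hw, rfl⟩ := Subgroup.mem_sup_of_normal_right.mp hx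
  have e : ⁅h * w, d⁆ = (h * ⁅w, d⁆ * h⁻¹) * ⁅h, d⁆ := by
    simp only [commutatorElement_def]; group
  rw [e]
  refine Subgroup.mul_mem _ ?_ (Subgroup.mem_sup_right (Subgroup.commutator_mem_commutator hh hd))
  refine Subgroup.mem_sup_left (hW'.conj_mem _ ?_ h)
  have e2 : ⁅w, d⁆ = w * (d * w⁻¹ * d⁻¹) := by rw [commutatorElement_def]; group
  rw [e2]
  exact W'.mul_mem hw (hW'.conj_mem _ (W'.inv_mem hw) d)

/-- The main commutator computation. -/
theorem engel_step [Finite G] {T B C X W W' D : Subgroup G} [hWn : W.Normal] [hW'n : W'.Normal]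
    [hXn : X.Normal] [hBn : B.Normal]
    (hW'W : W' ≤ W) (hWT : ⁅W, T⁆ ≤ W')
    (hXT : X ≤ T) (hBT : B ≤ T) (hXB : ⁅X, B⁆ ≤ W) (hXC : ⁅X, C⁆ ≤ W')
    {m n k : ℕ} (hk : m + n ≤ k + 1)
    (hBC : iterCommutator B D m ≤ C) (hWD : iterCommutator W D n ≤ W') :
    ⁅iterCommutator X D k, B⁆ ≤ W' := by
  let N : ℕ → Subgroup G := fun s => W' ⊔ iterCommutator W D s
  have hWN : ∀ s, W' ≤ N s := fun s => le_sup_left
  have hNW : ∀ s, N s ≤ W := fun s => sup_le hW'W (iter_le W D s)
  have hTN : ∀ s, T ≤ normalizer (N s : Set G) := by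
    intro s t ht
    refine Cfsg.Agent.Lib.Transfer.Frobenius.mem_normalizer_of_conj_mem fun n hn => ?_
    have e : t * n * t⁻¹ = ⁅n, t⁆⁻¹ * n := by
      rw [commutatorElement_inv, commutatorElement_def]; group
    rw [e]
    exact (N s).mul_mem (hWN s (W'.inv_mem (hWT (Subgroup.commutator_mem_commutator (hNW s hn) ht)))) hn
  have hDN : ∀ s, D ≤ normalizer (N s : Set G) := by
    intro s d hd
    refine Cfsg.Agent.Lib.Transfer.Frobenius.mem_normalizer_of_conj_mem fun n hn => ?_
    obtain ⟨c, hc, w, hw, rfl⟩ := Subgroup.mem_sup_of_normal_right.mp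
      (show n ∈ iterCommutator W D s ⊔ W' by rw [sup_comm]; exact hn)
    have e : d * (c * w) * d⁻¹ = (⁅c, d⁆⁻¹ * c) * (d * w * d⁻¹) := by
      rw [commutatorElement_inv, commutatorElement_def]; group
    rw [e]
    refine (N s).mul_mem ((N s).mul_mem ?_ (Subgroup.mem_sup_right hc)) (hWN s (hW'n.conj_mem _ hw d))
    refine (N s).inv_mem (Subgroup.mem_sup_right ?_)
    exact iter_succ_le W D s (Subgroup.commutator_mem_commutator hc hd)
  have hND : ∀ s, ⁅N s, D⁆ ≤ N (s + 1) := fun s => sup_comm_le
  have hXi : ∀ i, iterCommutator X D i ≤ T := fun i => (iter_le X D i).trans hXT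
  have hBi : ∀ j, iterCommutator B D j ≤ T := fun j => (iter_le B D j).trans hBT
  have Q : ∀ i j s, (s = 0 ∨ m ≤ j ∨ m + s ≤ i + j + 1) →
      ⁅iterCommutator X D i, iterCommutator B D j⁆ ≤ N s := by
    have easy0 : ∀ i j, ⁅iterCommutator X D i, iterCommutator B D j⁆ ≤ N 0 := by
      intro i j
      refine (Subgroup.commutator_mono (iter_le X D i) (iter_le B D j)).trans (hXB.trans ?_)
      exact le_sup_right
    have easym : ∀ i j s, m ≤ j → ⁅iterCommutator X D i, iterCommutator B D j⁆ ≤ N s := by
      intro i j s hj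
      refine (Subgroup.commutator_mono (iter_le X D i) ((iter_le_of_le B D hj).trans hBC)).trans
        (hXC.trans (hWN s))
    intro i
    induction i with
    | zero =>
      intro j s hP
      rcases hP with rfl | hj | h
      · exact easy0 _ _
      · exact easym _ _ _ hj
      · rcases s with _ | s
        · exact easy0 _ _
        · exact easym _ _ _ (by omega)
    | succ i ih =>
      intro j s hP
      rcases s with _ | s
      · exact easy0 _ _
      by_cases hj : m ≤ j
      · exact easym _ _ _ hj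
      have hP' : m + s ≤ i + j + 1 := by
        rcases hP with h | h | h
        · omega
        · omega
        · omega
      rw [iter_succ]
      refine three_rel ((hXi i).trans (hTN _)) (hDN _) ((hBi j).trans (hTN _)) ?_ ?_
      · rw [Subgroup.commutator_comm D, Subgroup.commutator_comm _ (iterCommutator X D i)]
        exact ih (j + 1) (s + 1) (by omega)
      · rw [Subgroup.commutator_comm (iterCommutator B D j)]
        exact (Subgroup.commutator_mono (ih j s (by omega)) le_rfl).trans (hND s)
  have h := Q k 0 n (by omega)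
  refine h.trans (sup_le le_rfl hWD)

/-- `D` acts with `k` steps on all the chief factors below `N`. -/
def EngelOn (D : Subgroup G) (k : ℕ) (N : Subgroup G) : Prop :=
  ∀ U V : Subgroup G, IsChiefFactor U V → U ≤ N → iterCommutator U D k ≤ V

theorem EngelOn.mono {D M N : Subgroup G} {k : ℕ} (h : EngelOn D k N) (hMN : M ≤ N) :
    EngelOn D k M :=
  fun U V hc hU => h U V hc (hU.trans hMN)

theorem EngelOn.extend {M N D : Subgroup G} {k : ℕ} [hMn : M.Normal] (hM : EngelOn D k M)
    (h : iterCommutator N D k ≤ M) : EngelOn D k N := by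
  intro U V hc hUN
  obtain ⟨hVU, hUn, hVn, hmin⟩ := id hc
  haveI := hUn
  haveI := hVn
  by_cases hUM : U ⊓ M ≤ V
  · refine le_trans (le_inf ?_ ?_) hUM
    · exact iter_le U D k
    · exact (iter_mono D hUN k).trans h
  · have hN : ((U ⊓ M) ⊔ V : Subgroup G).Normal := by infer_instance
    rcases hmin _ hN le_sup_right (sup_le inf_le_left hVU.le) with h1 | h1
    · exact absurd (le_sup_left.trans h1.le) hUM
    · have hc' : IsChiefFactor (U ⊓ M) (V ⊓ M) := by
        refine ⟨lt_of_le_of_ne (inf_le_inf_right M hVU.le) ?_, inferInstance, inferInstance, ?_⟩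
        · intro he
          apply hUM
          rw [← he]
          exact inf_le_left
        · intro K hKn hK1 hK2
          haveI := hKn
          have hKV : (K ⊔ V : Subgroup G).Normal := by infer_instance
          rcases hmin _ hKV le_sup_right
            (sup_le (hK2.trans inf_le_left) hVU.le) with h2 | h2
          · left
            refine le_antisymm (le_inf ?_ (hK2.trans inf_le_right)) hK1
            exact le_sup_left.trans h2.le
          · right
            refine le_antisymm hK2 ?_
            rintro x ⟨hxU, hxM⟩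
            have hxU' : x ∈ K ⊔ V := by rw [h2]; exact hxU
            obtain ⟨k, hk, v, hv, rfl⟩ := Subgroup.mem_sup_of_normal_right.mp hxU'
            have hvM : v ∈ M := by
              have e : v = k⁻¹ * (k * v) := by group
              rw [e]
              exact M.mul_mem (M.inv_mem (hK2 hk).2) hxM
            exact K.mul_mem hk (hK1 ⟨hv, hvM⟩)
      have h3 := hM _ _ hc' inf_le_right
      let π := QuotientGroup.mk' V
      have hVb : V.map π = ⊥ := by
        rw [eq_bot_iff]
        rintro _ ⟨w, hw, rfl⟩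
        exact (QuotientGroup.eq_one_iff w).mpr hw
      have hmap : U.map π = (U ⊓ M).map π := by
        conv_lhs => rw [← h1]
        rw [Subgroup.map_sup, hVb, sup_bot_eq]
      have h4 : (iterCommutator U D k).map π ≤ ⊥ := by
        rw [map_iter, hmap, ← map_iter, ← hVb]
        exact Subgroup.map_mono (h3.trans inf_le_left)
      intro x hx
      have h5 : π x ∈ (⊥ : Subgroup (G ⧸ V)) := h4 ⟨x, hx, rfl⟩
      exact (QuotientGroup.eq_one_iff x).mp h5

theorem engel_filter [Finite G] {p : ℕ} [hp : Fact p.Prime] {T Z B C X₀ D : Subgroup G}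
    [hTn : T.Normal] [hZn : Z.Normal] [hBn : B.Normal] [hXn : X₀.Normal]
    (hTp : IsPGroup p T) (hZT : Z ≤ T)
    (hBT : B ≤ T) (hX₀T : X₀ ≤ T) (hX₀B : ⁅X₀, B⁆ ≤ Z) (hX₀C : ⁅X₀, C⁆ = ⊥)
    {m n k : ℕ} (hmn : m + n ≤ k + 1)
    (hBC : iterCommutator B D m ≤ C)
    (hZD : ∀ U V : Subgroup G, IsChiefFactor U V → U ≤ Z → iterCommutator U D n ≤ V)
    (hbase : EngelOn D k (sec X₀ B ⊥)) : EngelOn D k X₀ := by
  have key : ∀ W : Subgroup G, ∀ hW : W.Normal, W ≤ Z → EngelOn D k (@sec _ _ X₀ B W hW) := by
    intro W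
    induction W using WellFoundedLT.induction with
    | ind W ih =>
      intro hW hWZ
      haveI := hW
      by_cases hne : W = ⊥
      · subst hne
        exact hbase
      obtain ⟨W', hc⟩ := exists_chief_below hne
      obtain ⟨h1, _, h3, _⟩ := id hc
      haveI := h3
      have hWT : ⁅W, T⁆ ≤ W' := by
        rw [Subgroup.commutator_le]
        exact chief_central hTp hc (hWZ.trans hZT)
      have hIH := ih W' h1 h3 (h1.le.trans hWZ)
      haveI hsn := sec_normal X₀ B W
      haveI hsn' := sec_normal X₀ B W'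
      refine EngelOn.extend hIH ?_
      have hX : sec X₀ B W ≤ X₀ := inf_le_left
      have h4 := engel_step (T := T) (B := B) (C := C) (X := sec X₀ B W) (W := W) (W' := W') (D := D)
        h1.le hWT (hX.trans hX₀T) hBT ?_ ?_ hmn hBC (hZD W W' hc hWZ)
      · intro x hx
        refine mem_sec.mpr ⟨hX (iter_le _ D k hx), fun b hb => h4 (Subgroup.commutator_mem_commutator hx hb)⟩
      · rw [Subgroup.commutator_le]
        intro x hx b hb
        exact (mem_sec.mp hx).2 b hb
      · have := Subgroup.commutator_mono hX (le_refl C)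
        rw [hX₀C] at this
        exact this.trans bot_le
  refine (key Z hZn le_rfl).mono ?_
  intro x hx
  exact mem_sec.mpr ⟨hx, fun b hb => hX₀B (Subgroup.commutator_mem_commutator hx hb)⟩

theorem exists_chief_above [Finite G] {C Z : Subgroup G} [hC : C.Normal] [hZ : Z.Normal]
    (hlt : C < Z) : ∃ C', C' ≤ Z ∧ IsChiefFactor C' C := by
  let F : Set (Subgroup G) := {N | N.Normal ∧ C < N ∧ N ≤ Z}
  have hne : F.Nonempty := ⟨Z, hZ, hlt, le_rfl⟩
  obtain ⟨C', ⟨h1, h2, h3⟩, hmin⟩ := F.toFinite.exists_minimal hne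
  refine ⟨C', h3, h2, h1, hC, fun N hN hCN hNC => ?_⟩
  by_cases hNe : N = C
  · exact Or.inl hNe
  · right
    exact le_antisymm hNC (hmin ⟨hN, lt_of_le_of_ne hCN (Ne.symm hNe), hNC.trans h3⟩ hNC)

end EngelF

open EngelF in
/-- The `k`-step action on all chief factors below `T`. -/
theorem engel_main [Finite G] {p : ℕ} [hp : Fact p.Prime] {T A D : Subgroup G}
    [hTn : T.Normal] [hAn : A.Normal] (hTp : IsPGroup p T) (hAT : A ≤ T)
    (hD : ∀ d ∈ D, ∀ d' ∈ D, d * d' = d' * d)
    (hA3 : ⁅T, A⁆ ≤ A ⊓ centralizer (A : Set G))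
    (hA4 : T ⊓ centralizer (A : Set G) ≤ A ⊓ centralizer (A : Set G))
    {m n k : ℕ} (hmn : m + n ≤ k + 1) (hnn : 2 * n ≤ k + 1) (hnk : n ≤ k)
    (hcub : iterCommutator A D m ≤ A ⊓ centralizer (A : Set G))
    (hquad : ∀ U V : Subgroup G, IsChiefFactor U V → U ≤ A ⊓ centralizer (A : Set G) → iterCommutator U D n ≤ V) :
    ∀ U V : Subgroup G, IsChiefFactor U V → U ≤ T → iterCommutator U D k ≤ V := by
  let Z : Subgroup G := A ⊓ centralizer (A : Set G)
  haveI hZn : Z.Normal := by infer_instance
  have hZA : Z ≤ A := inf_le_left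
  have hZT : Z ≤ T := hZA.trans hAT
  have hP1 : EngelOn D k Z := by
    intro U V hc hU
    haveI := hc.2.1
    exact (iter_le_of_le U D hnk).trans (hquad U V hc hU)
  have hcen : ∀ X C : Subgroup G, X ≤ centralizer (C : Set G) → ⁅X, C⁆ = ⊥ := fun X C h =>
    Subgroup.commutator_eq_bot_iff_le_centralizer.mpr h
  have hsec : ∀ (X₀ B : Subgroup G), sec X₀ B ⊥ ≤ X₀ ⊓ centralizer (B : Set G) := by
    intro X₀ B x hx
    obtain ⟨h1, h2⟩ := mem_sec.mp hx
    refine ⟨h1, ?_⟩
    change x ∈ centralizer (B : Set G)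
    rw [mem_centralizer_iff]
    intro a ha
    have h3 := h2 a ha
    rw [Subgroup.mem_bot, commutatorElement_eq_one_iff_mul_comm] at h3
    exact h3.symm
  have key : ∀ C : Subgroup G, ∀ hC : C.Normal, C ≤ Z → EngelOn D k (T ⊓ centralizer (C : Set G)) := by
    intro C
    induction C using WellFoundedGT.induction with
    | ind C ih =>
      intro hC hCZ
      haveI := hC
      rcases hCZ.lt_or_eq with hlt | rfl
      · obtain ⟨C', hC'Z, hc⟩ := exists_chief_above hlt
        obtain ⟨h1, h2, _, _⟩ := id hc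
        haveI := h2
        have hIH := ih C' h1 h2 hC'Z
        have hX₀T : T ⊓ centralizer (C : Set G) ≤ T := inf_le_left
        refine engel_filter (T := T) (Z := Z) (B := C') (C := C) (m := n) (n := n) hTp hZT
          (hC'Z.trans hZT) hX₀T
          ((Subgroup.commutator_mono hX₀T (hC'Z.trans hZA)).trans hA3)
          (hcen _ _ inf_le_right) (by omega) (hquad C' C hc hC'Z) hquad
          (hIH.mono ((hsec _ _).trans (inf_le_inf_right _ inf_le_left)))
      · have hC₁T : T ⊓ centralizer (Z : Set G) ≤ T := inf_le_left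
        refine engel_filter (T := T) (Z := Z) (B := A) (C := Z) hTp hZT hAT hC₁T
          ((Subgroup.commutator_mono hC₁T le_rfl).trans hA3) (hcen _ _ inf_le_right) hmn hcub hquad
          (hP1.mono ?_)
        exact ((hsec _ _).trans (inf_le_inf_right _ inf_le_left)).trans hA4
  intro U V hc hU
  refine key ⊥ inferInstance bot_le U V hc (hU.trans ?_)
  refine le_inf le_rfl ?_
  intro x _
  rw [mem_centralizer_iff]
  rintro y hy
  have hy1 : y = 1 := by simpa using hy
  rw [hy1, one_mul, mul_one]

end Cfsg.Agent.Lib.JTrans
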