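import Mathlib
import Cfsg.Agent.S1972
import Cfsg.Agent.Lib.Transfer.SectionControl
import Cfsg.Agent.Lib.Transfer.WellPlacedControl
import Cfsg.Agent.Lib.Transfer.PQuotientIso

/-!
# The Thompson subgroup controls the largest `p`-quotient, from the local Engel hypothesis
-/

set_option autoImplicit false

universe u

namespace Cfsg.Agent.Lib.JTrans

open Subgroup Cfsg Cfsg.Agent.Lib.Transfer.SectionControl Cfsg.Agent.Lib.Transfer.WellPlaced
  Cfsg.Agent.Lib.Transfer.WellPlacedControl Cfsg.Agent.Lib.Transfer.SectionBasic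

namespace FinalAux

theorem map_maxAbelian {Q R : Type u} [Group Q] [Group R] (φ : Q ≃* R) {A : Subgroup Q}
    (hA : A ∈ maxAbelianSubgroups Q) : A.map φ.toMonoidHom ∈ maxAbelianSubgroups R := by
  obtain ⟨h1, h2⟩ := hA
  have hc : ∀ B : Subgroup Q, Nat.card (B.map φ.toMonoidHom) = Nat.card B := fun B =>
    Subgroup.card_map_of_injective φ.injective
  refine ⟨⟨⟨?_⟩⟩, fun B hB => ?_⟩
  · rintro ⟨_, a, ha, rfl⟩ ⟨_, b, hb, rfl⟩
    apply Subtype.ext
    show φ a * φ b = φ b * φ a
    rw [← map_mul, ← map_mul]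
    have := congrArg Subtype.val (h1.is_comm.comm ⟨a, ha⟩ ⟨b, hb⟩)
    rw [show a * b = b * a from this]
  · rw [hc]
    have hB' : IsMulCommutative (B.map φ.symm.toMonoidHom) := by
      refine ⟨⟨?_⟩⟩
      rintro ⟨_, a, ha, rfl⟩ ⟨_, b, hb, rfl⟩
      apply Subtype.ext
      show φ.symm a * φ.symm b = φ.symm b * φ.symm a
      rw [← map_mul, ← map_mul]
      have := congrArg Subtype.val (hB.is_comm.comm ⟨a, ha⟩ ⟨b, hb⟩)
      rw [show a * b = b * a from this]
    have h3 := h2 _ hB'
    rwa [show Nat.card (B.map φ.symm.toMonoidHom) = Nat.card B from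
      Subgroup.card_map_of_injective φ.symm.injective] at h3

theorem map_thompson_le {Q R : Type u} [Group Q] [Group R] (φ : Q ≃* R) :
    (thompsonSubgroupA Q).map φ.toMonoidHom ≤ thompsonSubgroupA R := by
  rw [Subgroup.map_le_iff_le_comap]
  refine sSup_le fun A hA => ?_
  rw [← Subgroup.map_le_iff_le_comap]
  exact le_sSup (map_maxAbelian φ hA)

theorem map_thompson {Q R : Type u} [Group Q] [Group R] (φ : Q ≃* R) :
    (thompsonSubgroupA Q).map φ.toMonoidHom = thompsonSubgroupA R := by
  refine le_antisymm (map_thompson_le φ) fun y hy => ?_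
  have h1 := map_thompson_le φ.symm ⟨y, hy, rfl⟩
  exact ⟨φ.symm y, h1, φ.apply_symm_apply y⟩

theorem exists_maxAbelian (Q : Type u) [Group Q] [Finite Q] :
    ∃ A : Subgroup Q, A ∈ maxAbelianSubgroups Q := by
  have hfin : ({A : Subgroup Q | IsMulCommutative A}).Finite := Set.toFinite _
  have hne : ({A : Subgroup Q | IsMulCommutative A}).Nonempty :=
    ⟨⊥, ⟨⟨fun a b => Subsingleton.elim _ _⟩⟩⟩
  obtain ⟨A, hA, hmax⟩ := Set.exists_max_image _ (fun A : Subgroup Q => Nat.card A) hfin hne
  exact ⟨A, hA, fun B hB => hmax B hB⟩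

theorem thompson_ne_bot (Q : Type u) [Group Q] [Finite Q] [Nontrivial Q] :
    thompsonSubgroupA Q ≠ ⊥ := by
  obtain ⟨A, hA⟩ := exists_maxAbelian Q
  obtain ⟨x, hx⟩ := exists_ne (1 : Q)
  have hZ : IsMulCommutative (Subgroup.zpowers x) := by
    refine ⟨⟨?_⟩⟩
    rintro ⟨_, i, rfl⟩ ⟨_, j, rfl⟩
    apply Subtype.ext
    exact zpow_mul_comm x i j
  have h1 := hA.2 _ hZ
  have h2 : 1 < Nat.card (Subgroup.zpowers x) := by
    haveI : Nontrivial (Subgroup.zpowers x) := by
      rw [Subgroup.nontrivial_iff_ne_bot, Ne, Subgroup.zpowers_eq_bot]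
      exact hx
    exact Finite.one_lt_card
  intro hbot
  have hA' : A = ⊥ := le_bot_iff.1 (hbot ▸ (le_sSup hA : A ≤ thompsonSubgroupA Q))
  rw [hA', Subgroup.card_bot] at h1
  omega

/-- The Thompson subgroup is an isomorphism-invariant `p`-group functor. -/
theorem isChar (p : ℕ) : IsCharPFunctor.{u} p (fun Q _ => thompsonSubgroupA Q) := by
  refine ⟨fun Q _ _ _ hnt => ?_, fun Q R _ _ _ _ φ => map_thompson φ⟩
  exact thompson_ne_bot Q

end FinalAux

open FinalAux

variable {p : ℕ} [hp : Fact p.Prime]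

/-- The local hypothesis: Engel elements for the Thompson subgroup. -/
def HlocThompson (p : ℕ) [Fact p.Prime] : Prop :=
  ∀ (X : Type u) [Group X] [Finite X] (T : Sylow p X),
    ¬ (thompsonSubgroupAOf (T : Subgroup X)).Normal →
    ∃ g : X, g ∈ (T : Subgroup X) ∧ g ∉ pCore p X ∧ ∀ U V : Subgroup X, IsChiefFactor U V →
      U ≤ pCore p X → iterCommutator U (Subgroup.zpowers g) (p - 1) ≤ V

/-- The Thompson subgroup controls transfer in all sections. -/
theorem allSections_thompson (hloc : HlocThompson.{u} p) (G : Type u) [Group G] [Finite G] :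
    AllSections p (fun Q _ => thompsonSubgroupA Q) G := by
  intro K R hR
  refine Cfsg.Agent.S1972.result _ (isChar p) ?_ K R
  intro K' R' hR' _ T hT
  exact hloc _ T hT

theorem controls_thompson (hloc : HlocThompson.{u} p) (G : Type u) [Group G] [Finite G] :
    ControlsTransferIn p (inducedFunctor (G := G) (fun Q _ => thompsonSubgroupA Q)) ⊤ :=
  AllSections.self (isChar p) (allSections_thompson hloc G)

theorem focal_thompson (hloc : HlocThompson.{u} p) {G : Type u} [Group G] [Finite G] (S : Sylow p G) :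
    (S : Subgroup G) ⊓ commutator G = (S : Subgroup G) ⊓
      ⁅normalizer (thompsonSubgroupAOf (S : Subgroup G) : Set G),
        normalizer (thompsonSubgroupAOf (S : Subgroup G) : Set G)⁆ := by
  have h := controlsTransfer_at (isConjugacyFunctor_iW (isChar p)) (controls_thompson hloc G) le_top
    S.isPGroup' (by rw [Subgroup.relIndex_top_right]; exact S.not_dvd_index)
  simp only [top_inf_eq] at h
  exact h

theorem le_normalizer_thompson {G : Type u} [Group G] [Finite G] (S : Sylow p G) :
    (S : Subgroup G) ≤ normalizer (thompsonSubgroupAOf (S : Subgroup G) : Set G) :=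
  (le_Nz_self _).trans (Nz_le_Nz_W (isConjugacyFunctor_iW (X := G) (isChar p)) S.isPGroup')

/-- **The largest `p`-quotient**, from the local hypothesis. -/
theorem s3068_core (hloc : HlocThompson.{u} p) {G : Type u} [Group G] [Finite G] (S : Sylow p G)
    [hn : (Cfsg.pResidual p G).Normal]
    [hm : (Cfsg.pResidual p ↥(Subgroup.normalizer (Cfsg.thompsonSubgroupAOf (S : Subgroup G) : Set G))).Normal] :
    Nonempty (G ⧸ Cfsg.pResidual p G ≃*
      ↥(Subgroup.normalizer (Cfsg.thompsonSubgroupAOf (S : Subgroup G) : Set G)) ⧸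
        Cfsg.pResidual p ↥(Subgroup.normalizer (Cfsg.thompsonSubgroupAOf (S : Subgroup G) : Set G))) :=
  Cfsg.Agent.Lib.Transfer.PQuotientIso.nonempty_quotient_equiv S (le_normalizer_thompson S)
    (le_of_eq_of_le (focal_thompson hloc S) inf_le_right)

end Cfsg.Agent.Lib.JTrans
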