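import Mathlib
import Cfsg.Agent.Lib.JTrans.Count

/-!
# Lemma L for `N(J(S))` controls transfer (S3068)
-/

set_option autoImplicit false

namespace Cfsg.Agent.Lib.JTrans

open Subgroup Cfsg
open scoped commutatorElement

variable {G : Type*} [Group G]

namespace LemmaLAux

/-- `cA w A ≤ W` for an `A`-invariant `W`. -/
theorem cA_le {W A : Subgroup G} (hWA : ∀ a ∈ A, ∀ w ∈ W, a * w * a⁻¹ ∈ W) {w : G} (hw : w ∈ W) :
    cA w A ≤ W := by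
  refine (closure_le _).2 ?_
  rintro x ⟨e, he, rfl⟩
  have : ⁅w, e⁆ = w * (e * w⁻¹ * e⁻¹) := by simp [commutatorElement_def, mul_assoc]
  show ⁅w, e⁆ ∈ W
  rw [this]
  exact W.mul_mem hw (hWA e he _ (W.inv_mem hw))

theorem comm_mem {W A : Subgroup G} (hWA : ∀ a ∈ A, ∀ w ∈ W, a * w * a⁻¹ ∈ W) {w e : G} (hw : w ∈ W)
    (he : e ∈ A) : ⁅w, e⁆ ∈ W :=
  cA_le hWA hw (subset_closure ⟨e, he, rfl⟩)

/-- The iterated commutators stay in `W`. -/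
theorem iter_le {W A : Subgroup G} (hWA : ∀ a ∈ A, ∀ w ∈ W, a * w * a⁻¹ ∈ W) (k : ℕ) :
    iterCommutator W A k ≤ W := by
  induction k with
  | zero => exact le_rfl
  | succ k ih =>
    show ⁅iterCommutator W A k, A⁆ ≤ W
    rw [commutator_le]
    intro x hx a ha
    exact comm_mem hWA (ih hx) ha

/-- The subgroup of those `y ∈ W` with `[y, a] ∈ V`, for `V ≤ W` and `W` abelian. -/
def stepSub {W V : Subgroup G} (hWA' : ∀ w ∈ W, ⁅w, (1 : G)⁆ ∈ W) (hWab : ∀ a ∈ W, ∀ b ∈ W, a * b = b * a)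
    (hVW : V ≤ W) (a : G) (hcomm : ∀ y ∈ W, ⁅y, a⁆ ∈ W) : Subgroup G where
  carrier := {y | y ∈ W ∧ ⁅y, a⁆ ∈ V}
  mul_mem' := by
    rintro x y ⟨hx, hx'⟩ ⟨hy, hy'⟩
    refine ⟨W.mul_mem hx hy, ?_⟩
    have h1 : ⁅x * y, a⁆ = x * ⁅y, a⁆ * x⁻¹ * ⁅x, a⁆ := by
      simp [commutatorElement_def, mul_assoc]
    have h2 : x * ⁅y, a⁆ * x⁻¹ = ⁅y, a⁆ := by
      rw [hWab x hx _ (hcomm y hy)]; group
    rw [h1, h2]
    exact V.mul_mem hy' hx'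
  one_mem' := by
    refine ⟨W.one_mem, ?_⟩
    simp [commutatorElement_def, V.one_mem]
  inv_mem' := by
    rintro x ⟨hx, hx'⟩
    refine ⟨W.inv_mem hx, ?_⟩
    have h1 : (1 : G) = ⁅x⁻¹ * x, a⁆ := by simp [commutatorElement_def]
    have h2 : ⁅x⁻¹ * x, a⁆ = x⁻¹ * ⁅x, a⁆ * x * ⁅x⁻¹, a⁆ := by
      simp [commutatorElement_def, mul_assoc]
    have h3 : x⁻¹ * ⁅x, a⁆ * x = ⁅x, a⁆ := by
      rw [hWab _ (W.inv_mem hx) _ (hcomm x hx)]; group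
    have h4 : ⁅x⁻¹, a⁆ = ⁅x, a⁆⁻¹ := by
      rw [h2, h3] at h1
      exact (eq_inv_of_mul_eq_one_right h1.symm)
    rw [h4]
    exact V.inv_mem hx'

/-- The iteration: `W ≤ [W,A] ⊔ (W ⊓ A)` gives `W ≤ [W,A;k] ⊔ (W ⊓ A)`. -/
theorem le_iter {W A : Subgroup G} (hWab : ∀ a ∈ W, ∀ b ∈ W, a * b = b * a)
    (hWA : ∀ a ∈ A, ∀ w ∈ W, a * w * a⁻¹ ∈ W) (hA : ∀ a ∈ A, ∀ b ∈ A, a * b = b * a)
    (hW : W ≤ ⁅W, A⁆ ⊔ (W ⊓ A)) (k : ℕ) : W ≤ iterCommutator W A k ⊔ (W ⊓ A) := by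
  induction k with
  | zero => exact le_sup_left
  | succ k ih =>
    have hV : iterCommutator W A (k + 1) ≤ W := iter_le hWA (k + 1)
    have hsub : ⁅W, A⁆ ≤ iterCommutator W A (k + 1) := by
      rw [commutator_le]
      intro y hy a ha
      let T := stepSub (V := iterCommutator W A (k + 1)) (W := W) (fun w hw => comm_mem hWA hw A.one_mem)
        hWab hV a (fun y hy => comm_mem hWA hy ha)
      have hT : iterCommutator W A k ⊔ (W ⊓ A) ≤ T := by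
        refine sup_le ?_ ?_
        · intro x hx
          refine ⟨iter_le hWA k hx, ?_⟩
          exact commutator_mem_commutator hx ha
        · intro x hx
          refine ⟨hx.1, ?_⟩
          have : ⁅x, a⁆ = 1 := by
            rw [commutatorElement_eq_one_iff_mul_comm]
            exact hA x hx.2 a ha
          rw [this]; exact Subgroup.one_mem _
      exact (hT (ih hy)).2
    exact hW.trans (sup_le_sup_right hsub _)

end LemmaLAux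

open LemmaLAux in
/-- Proof: suppose `[w,a] ∉ A`, `z := w`. `gen_count` gives `K`, `D = K ⊔ cA w A`. `A ⊓ P ≤ K` since `[w,c]=1`.
If `K ≰ P` then `D ≰ P`, `D ⊓ P ≥ (A⊓P) ⊔ cA w A`, strictly bigger than `A ⊓ P` because `cA w A ≰ A`: contradicts `hmax`.
So `K = A ⊓ P`. `card_le_of_comm` with `C = A ⊓ P`: `|W : W∩A| ≤ |A : A⊓P|`; and `|cA : cA∩A| = |A : K|`; `cA w A ≤ W`, so
`W ≤ cA w A ⊔ (W ⊓ A)`. Hence `W ≤ iterCommutator W A k ⊔ (W ⊓ A)` for all `k` (A centralizes `W ⊓ A`, `W` abelian),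
`iter_eventually_bot`: `W ≤ A`, so `[w,a] = 1`, contradiction. -/
theorem lemma_L [Finite G] {p : ℕ} [Fact p.Prime] {S P A W : Subgroup G} (hS : IsPGroup p S) (h : Setup S P A) (hWP : W ≤ P)
    (hWab : ∀ a ∈ W, ∀ b ∈ W, a * b = b * a) (hWA : ∀ a ∈ A, ∀ w ∈ W, a * w * a⁻¹ ∈ W)
    (hcent : ∀ c ∈ A ⊓ P, ∀ w ∈ W, w * c = c * w) : ∀ w ∈ W, ∀ a ∈ A, ⁅w, a⁆ ∈ A := by
  intro w hw a ha
  by_contra hne
  have hWS : W ≤ S := hWP.trans h.hPS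
  have hcAW : cA w A ≤ W := cA_le hWA hw
  have hab : ∀ x ∈ cA w A, ∀ y ∈ cA w A, x * y = y * x := fun x hx y hy => hWab x (hcAW hx) y (hcAW hy)
  obtain ⟨K, hK, hKc, hKD, -, hcard⟩ := gen_count h.hA (hWS hw) hab
  have hwa : ⁅w, a⁆ ∈ cA w A := subset_closure ⟨a, ha, rfl⟩
  -- `A ⊓ P ≤ K`
  have hAPK : A ⊓ P ≤ K := by
    intro c hc
    refine (hK c).2 ⟨hc.1, ?_⟩
    have : ⁅w, c⁆ = 1 := by
      rw [commutatorElement_eq_one_iff_mul_comm]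
      exact hcent c hc w hw
    rw [this]; exact A.one_mem
  -- `K ≤ P`
  have hKP : K ≤ P := by
    intro d hd
    by_contra hdP
    have hDP : ¬ K ⊔ cA w A ≤ P := fun hle => hdP (hle (mem_sup_left hd))
    have hle := h.hmax _ hKD hDP
    have hsub : A ⊓ P ≤ (K ⊔ cA w A) ⊓ P := le_inf (hAPK.trans le_sup_left) inf_le_right
    have heq := Subgroup.eq_of_le_of_card_ge hsub hle
    have hmem : ⁅w, a⁆ ∈ (K ⊔ cA w A) ⊓ P := ⟨mem_sup_right hwa, hWP (hcAW hwa)⟩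
    rw [← heq] at hmem
    exact hne hmem.1
  have hKeq : K = A ⊓ P := le_antisymm (le_inf (fun d hd => ((hK d).1 hd).1) hKP) hAPK
  subst hKeq
  -- counting
  have h1 := card_le_of_comm (S := S) (A := A) (C := A ⊓ P) (W := W) h.hA inf_le_left hWS hWab
    (fun c hc w hw => (hcent c hc w hw).symm)
  have hinf : (A ⊓ P) ⊓ W = W ⊓ A := by
    ext x
    simp only [mem_inf]
    constructor
    · rintro ⟨⟨h1, -⟩, h3⟩; exact ⟨h3, h1⟩
    · rintro ⟨h1, h2⟩; exact ⟨⟨h2, hWP h1⟩, h1⟩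
  rw [hinf] at h1
  have hc : ∀ c ∈ cA w A, ∀ x ∈ W ⊓ A, c * x = x * c := fun c hc x hx => hWab c (hcAW hc) x hx.1
  have h2 := card_sup_comm hc
  have hinf2 : cA w A ⊓ (W ⊓ A) = cA w A ⊓ A := by
    ext x
    simp only [mem_inf]
    constructor
    · rintro ⟨h1, -, h3⟩; exact ⟨h1, h3⟩
    · rintro ⟨h1, h2⟩; exact ⟨h1, hcAW h1, h2⟩
  rw [hinf2] at h2
  have hHW : cA w A ⊔ (W ⊓ A) ≤ W := sup_le hcAW inf_le_left
  have hpos1 : 0 < Nat.card ↥(cA w A ⊓ A) := Nat.card_pos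
  have hpos2 : 0 < Nat.card ↥(A ⊓ P) := Nat.card_pos
  have hge : Nat.card W ≤ Nat.card ↥(cA w A ⊔ (W ⊓ A)) := by
    have key : Nat.card W * (Nat.card ↥(cA w A ⊓ A) * Nat.card ↥(A ⊓ P)) ≤
        Nat.card ↥(cA w A ⊔ (W ⊓ A)) * (Nat.card ↥(cA w A ⊓ A) * Nat.card ↥(A ⊓ P)) := by
      calc Nat.card W * (Nat.card ↥(cA w A ⊓ A) * Nat.card ↥(A ⊓ P))
          = (Nat.card ↥(A ⊓ P) * Nat.card W) * Nat.card ↥(cA w A ⊓ A) := by ring
        _ ≤ (Nat.card A * Nat.card ↥(W ⊓ A)) * Nat.card ↥(cA w A ⊓ A) := Nat.mul_le_mul_right _ h1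
        _ = (Nat.card A * Nat.card ↥(cA w A ⊓ A)) * Nat.card ↥(W ⊓ A) := by ring
        _ = (Nat.card ↥(A ⊓ P) * Nat.card (cA w A)) * Nat.card ↥(W ⊓ A) := by rw [hcard]
        _ = (Nat.card (cA w A) * Nat.card ↥(W ⊓ A)) * Nat.card ↥(A ⊓ P) := by ring
        _ = (Nat.card ↥(cA w A ⊔ (W ⊓ A)) * Nat.card ↥(cA w A ⊓ A)) * Nat.card ↥(A ⊓ P) := by rw [h2]
        _ = Nat.card ↥(cA w A ⊔ (W ⊓ A)) * (Nat.card ↥(cA w A ⊓ A) * Nat.card ↥(A ⊓ P)) := by ring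
    exact Nat.le_of_mul_le_mul_right key (Nat.mul_pos hpos1 hpos2)
  have hHeq : cA w A ⊔ (W ⊓ A) = W := Subgroup.eq_of_le_of_card_ge hHW hge
  have hcAcomm : cA w A ≤ ⁅W, A⁆ := by
    refine (closure_le _).2 ?_
    rintro x ⟨e, he, rfl⟩
    exact commutator_mem_commutator hw he
  have hW' : W ≤ ⁅W, A⁆ ⊔ (W ⊓ A) := by
    conv_lhs => rw [← hHeq]
    exact sup_le_sup_right hcAcomm _
  obtain ⟨k, hk⟩ := iter_eventually_bot (S := S) (W := W) (A := A) hS hWS h.hA.le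
  have hfin := le_iter hWab hWA h.hA.comm hW' k
  rw [hk, bot_sup_eq] at hfin
  exact hne (hfin (comm_mem hWA hw ha)).2

end Cfsg.Agent.Lib.JTrans
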