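import Mathlib
import Cfsg.Agent.Lib.JTrans.Defs
import Cfsg.Agent.Lib.JTrans.Count
import Cfsg.Agent.Lib.JTrans.LemmaL

/-!
# The `T`-level when `Z ≤ N(A)`: `[W 4, a] ≤ Z` for some `a ∈ A \ P`
-/

set_option autoImplicit false
set_option linter.unusedSectionVars false
set_option linter.unusedVariables false

namespace Cfsg.Agent.Lib.JTrans

open Subgroup Cfsg
open scoped commutatorElement

variable {G : Type*} [Group G]

namespace TQuintic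

theorem comm_mem_of_inv {H A : Subgroup G} (hH : ∀ a ∈ A, ∀ y ∈ H, a * y * a⁻¹ ∈ H) {y a : G}
    (hy : y ∈ H) (ha : a ∈ A) : ⁅y, a⁆ ∈ H := by
  rw [commutatorElement_def]
  have h1 := hH a ha y⁻¹ (H.inv_mem hy)
  have h2 : y * a * y⁻¹ * a⁻¹ = y * (a * y⁻¹ * a⁻¹) := by group
  rw [h2]
  exact H.mul_mem hy h1

theorem W_inv {B A : Subgroup G} (hBA : ∀ a ∈ A, ∀ y ∈ B, a * y * a⁻¹ ∈ B) (k : ℕ) :
    ∀ a ∈ A, ∀ y ∈ iterCommutator B A k, a * y * a⁻¹ ∈ iterCommutator B A k := by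
  induction k with
  | zero => exact hBA
  | succ k ih =>
    intro a ha y hy
    have h1 : iterCommutator B A (k + 1) ≤
        (iterCommutator B A (k + 1)).comap (MulAut.conj a).toMonoidHom := by
      show ⁅iterCommutator B A k, A⁆ ≤ (⁅iterCommutator B A k, A⁆).comap (MulAut.conj a).toMonoidHom
      rw [commutator_le]
      intro x hx b hb
      show (MulAut.conj a) ⁅x, b⁆ ∈ ⁅iterCommutator B A k, A⁆
      have h2 : (MulAut.conj a) ⁅x, b⁆ = ⁅a * x * a⁻¹, a * b * a⁻¹⁆ := by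
        simp only [MulAut.conj_apply, commutatorElement_def]
        group
      rw [h2]
      exact commutator_mem_commutator (ih a ha x hx) (A.mul_mem (A.mul_mem ha hb) (A.inv_mem ha))
    exact h1 hy

theorem W_succ_le {B A : Subgroup G} (hBA : ∀ a ∈ A, ∀ y ∈ B, a * y * a⁻¹ ∈ B) (k : ℕ) :
    iterCommutator B A (k + 1) ≤ iterCommutator B A k := by
  show ⁅iterCommutator B A k, A⁆ ≤ _
  rw [commutator_le]
  intro x hx b hb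
  exact comm_mem_of_inv (W_inv hBA k) hx hb

theorem W_anti {B A : Subgroup G} (hBA : ∀ a ∈ A, ∀ y ∈ B, a * y * a⁻¹ ∈ B) {k l : ℕ} (hkl : k ≤ l) :
    iterCommutator B A l ≤ iterCommutator B A k :=
  antitone_nat_of_succ_le (W_succ_le hBA) hkl

theorem comm_mul_left' (y y' c : G) (h : ⁅y', c⁆ * y = y * ⁅y', c⁆) :
    ⁅y * y', c⁆ = ⁅y', c⁆ * ⁅y, c⁆ := by
  have h1 : ⁅y * y', c⁆ = y * ⁅y', c⁆ * y⁻¹ * ⁅y, c⁆ := by
    simp only [commutatorElement_def]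
    group
  rw [h1, ← h]
  group

/-- The subgroup of `y ∈ H` with `[y, c] ∈ T`, when `y ↦ [y, c]` is a homomorphism on `H`. -/
def commSub (H T : Subgroup G) (c : G) (hc : ∀ y ∈ H, ∀ y' ∈ H, ⁅y', c⁆ * y = y * ⁅y', c⁆) :
    Subgroup G where
  carrier := {y | y ∈ H ∧ ⁅y, c⁆ ∈ T}
  mul_mem' := fun {a b} ha hb => ⟨H.mul_mem ha.1 hb.1, by
    rw [comm_mul_left' a b c (hc a ha.1 b hb.1)]
    exact T.mul_mem hb.2 ha.2⟩
  one_mem' := ⟨H.one_mem, by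
    rw [commutatorElement_one_left]
    exact T.one_mem⟩
  inv_mem' := fun {a} ha => ⟨H.inv_mem ha.1, by
    have h1 := comm_mul_left' a a⁻¹ c (hc a ha.1 a⁻¹ (H.inv_mem ha.1))
    rw [mul_inv_cancel, commutatorElement_one_left] at h1
    have h2 : ⁅a⁻¹, c⁆ = ⁅a, c⁆⁻¹ := eq_inv_of_mul_eq_one_left h1.symm
    rw [h2]
    exact T.inv_mem ha.2⟩

theorem mem_cent_single {g c : G} : g ∈ centralizer ({c} : Set G) ↔ g * c = c * g := by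
  rw [mem_centralizer_iff]
  constructor
  · intro h
    exact (h c rfl).symm
  · intro h x hx
    rw [Set.mem_singleton_iff] at hx
    subst hx
    exact h.symm

/-- All the hypotheses. -/
structure Hyp (S P A B Z Z₀ : Subgroup G) : Prop where
  h : Setup S P A
  hBP : B ≤ P
  hZB : Z ≤ B
  hZc : ∀ z ∈ Z, ∀ y ∈ B, z * y = y * z
  hZ₀Z : Z₀ ≤ Z
  hZ₀c : ∀ z ∈ Z₀, ∀ x ∈ P, z * x = x * z
  hform : ∀ x ∈ B, ∀ y ∈ B, ⁅x, y⁆ ∈ Z₀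
  hPB : ∀ x ∈ P, ∀ y ∈ B, ⁅y, x⁆ ∈ Z
  hBA : ∀ a ∈ A, ∀ y ∈ B, a * y * a⁻¹ ∈ B
  hZA : ∀ a ∈ A, ∀ z ∈ Z, a * z * a⁻¹ ∈ Z
  hZ₀A : ∀ a ∈ A, ∀ z ∈ Z₀, a * z * a⁻¹ ∈ Z₀
  hZ1 : ∀ z ∈ Z, ∀ a ∈ A, ⁅z, a⁆ ∈ A

variable {S P A B Z Z₀ : Subgroup G}

theorem Hyp.W_le_B (H : Hyp S P A B Z Z₀) (k : ℕ) : iterCommutator B A k ≤ B :=
  W_anti H.hBA (Nat.zero_le k)

theorem Hyp.a1 (H : Hyp S P A B Z Z₀) {y b c : G} (hy : y ∈ B) (hb : b ∈ A) (hc : c ∈ A ⊓ P) :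
    ⁅⁅y, b⁆, c⁆ = ⁅⁅y, c⁆, b⁆ := by
  have hyb : ⁅y, b⁆ ∈ B := comm_mem_of_inv H.hBA hy hb
  have hyc : ⁅y, c⁆ ∈ Z := H.hPB c hc.2 y hy
  have h1 : ⁅y, b⁆ * ⁅y, c⁆ = ⁅y, c⁆ * ⁅y, b⁆ := (H.hZc _ hyc _ hyb).symm
  have hybc : ⁅⁅y, b⁆, c⁆ ∈ Z := H.hPB c hc.2 _ hyb
  have h2 : ⁅y, c⁆ * ⁅⁅y, b⁆, c⁆ = ⁅⁅y, b⁆, c⁆ * ⁅y, c⁆ := H.hZc _ hyc _ (H.hZB hybc)
  have hycb : ⁅⁅y, c⁆, b⁆ ∈ Z := comm_mem_of_inv H.hZA hyc hb
  have h3 : ⁅y, b⁆ * ⁅⁅y, c⁆, b⁆ = ⁅⁅y, c⁆, b⁆ * ⁅y, b⁆ := (H.hZc _ hycb _ hyb).symm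
  exact comm_symm (H.h.hA.comm b hb c hc.1) h1 h2 h3

theorem Hyp.a2 (H : Hyp S P A B Z Z₀) {y c : G} (hy : y ∈ iterCommutator B A 1) (hc : c ∈ A ⊓ P) :
    ⁅y, c⁆ ∈ A := by
  let M := commSub B A c (fun y hy y' hy' => H.hZc _ (H.hPB c hc.2 y' hy') y hy)
  have h1 : iterCommutator B A 1 ≤ M := by
    show ⁅B, A⁆ ≤ M
    rw [commutator_le]
    intro y₀ hy₀ b₀ hb₀
    refine ⟨comm_mem_of_inv H.hBA hy₀ hb₀, ?_⟩
    rw [H.a1 hy₀ hb₀ hc]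
    exact H.hZ1 _ (H.hPB c hc.2 y₀ hy₀) b₀ hb₀
  exact (h1 hy).2

theorem Hyp.a4 (H : Hyp S P A B Z Z₀) {x c : G} (hx : x ∈ iterCommutator B A 2) (hc : c ∈ A ⊓ P) :
    x * c = c * x := by
  have h1 : iterCommutator B A 2 ≤ centralizer ({c} : Set G) := by
    show ⁅iterCommutator B A 1, A⁆ ≤ _
    rw [commutator_le]
    intro y hy b hb
    rw [mem_cent_single]
    have e : ⁅⁅y, b⁆, c⁆ = 1 := by
      rw [H.a1 (H.W_le_B 1 hy) hb hc]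
      exact commutatorElement_eq_one_iff_mul_comm.2 (H.h.hA.comm _ (H.a2 hy hc) _ hb)
    exact commutatorElement_eq_one_iff_mul_comm.1 e
  exact mem_cent_single.1 (h1 hx)

theorem three_aux {x w b u v c1 c2 : G} (hu : u = x * b * x⁻¹ * b⁻¹) (hv : v = w * b * w⁻¹ * b⁻¹)
    (hc1 : c1 = x * w * x⁻¹ * w⁻¹) (hc2 : c2 = u * w * u⁻¹ * w⁻¹)
    (hxv : x * v = v * x) (huv : u * v = v * u) (h1u : c1 * u = u * c1) (h1v : c1 * v = v * c1)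
    (h2u : c2 * u = u * c2) (h2v : c2 * v = v * c2) (h12 : c1 * c2 = c2 * c1) :
    c1 * b * c1⁻¹ * b⁻¹ = c2 := by
  have e1 : b * c1 * b⁻¹ = u⁻¹ * x * (v⁻¹ * w) * (x⁻¹ * u) * (w⁻¹ * v) := by
    rw [hc1, hu, hv]
    group
  have hxv' : x * v⁻¹ = v⁻¹ * x := ((show Commute x v from hxv).inv_right).eq
  have huv' : u⁻¹ * v⁻¹ = v⁻¹ * u⁻¹ := ((show Commute u v from huv).inv_right.inv_left).eq
  have e2 : u⁻¹ * x * (v⁻¹ * w) * (x⁻¹ * u) * (w⁻¹ * v) = v⁻¹ * (u⁻¹ * (x * w * x⁻¹ * u * w⁻¹)) * v := by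
    calc u⁻¹ * x * (v⁻¹ * w) * (x⁻¹ * u) * (w⁻¹ * v)
        = u⁻¹ * (x * v⁻¹) * w * x⁻¹ * u * w⁻¹ * v := by group
      _ = (u⁻¹ * v⁻¹) * x * w * x⁻¹ * u * w⁻¹ * v := by rw [hxv']; group
      _ = (v⁻¹ * u⁻¹) * x * w * x⁻¹ * u * w⁻¹ * v := by rw [huv']
      _ = _ := by group
  have e3 : x * w * x⁻¹ * u * w⁻¹ = c1 * c2⁻¹ * u := by
    rw [hc1, hc2]
    group
  have hdu : (c1 * c2⁻¹) * u = u * (c1 * c2⁻¹) :=
    ((show Commute c1 u from h1u).mul_left ((show Commute c2 u from h2u).inv_left)).eq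
  have hdv : (c1 * c2⁻¹) * v = v * (c1 * c2⁻¹) :=
    ((show Commute c1 v from h1v).mul_left ((show Commute c2 v from h2v).inv_left)).eq
  have e4 : u⁻¹ * (c1 * c2⁻¹ * u) = c1 * c2⁻¹ := by
    rw [hdu]
    group
  have e5 : v⁻¹ * (c1 * c2⁻¹) * v = c1 * c2⁻¹ := by
    rw [mul_assoc, hdv]
    group
  have key : b * c1 * b⁻¹ = c1 * c2⁻¹ := by
    rw [e1, e2, e3, e4, e5]
  have e6 : c1 * b * c1⁻¹ * b⁻¹ = c1 * (b * c1 * b⁻¹)⁻¹ := by group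
  rw [e6, key]
  have e7 : c1 * (c1 * c2⁻¹)⁻¹ = c1 * c2 * c1⁻¹ := by group
  rw [e7, h12]
  group

theorem three_id {x w b : G} (hxv : x * ⁅w, b⁆ = ⁅w, b⁆ * x) (huv : ⁅x, b⁆ * ⁅w, b⁆ = ⁅w, b⁆ * ⁅x, b⁆)
    (h1u : ⁅x, w⁆ * ⁅x, b⁆ = ⁅x, b⁆ * ⁅x, w⁆) (h1v : ⁅x, w⁆ * ⁅w, b⁆ = ⁅w, b⁆ * ⁅x, w⁆)
    (h2u : ⁅⁅x, b⁆, w⁆ * ⁅x, b⁆ = ⁅x, b⁆ * ⁅⁅x, b⁆, w⁆) (h2v : ⁅⁅x, b⁆, w⁆ * ⁅w, b⁆ = ⁅w, b⁆ * ⁅⁅x, b⁆, w⁆)
    (h12 : ⁅x, w⁆ * ⁅⁅x, b⁆, w⁆ = ⁅⁅x, b⁆, w⁆ * ⁅x, w⁆) : ⁅⁅x, w⁆, b⁆ = ⁅⁅x, b⁆, w⁆ := by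
  rw [commutatorElement_def ⁅x, w⁆ b]
  exact three_aux (commutatorElement_def _ _) (commutatorElement_def _ _)
    (commutatorElement_def _ _) (commutatorElement_def _ _) hxv huv h1u h1v h2u h2v h12

/-- `w` normalizes `A` modulo `Z` inside `B`. -/
def Nh (A B Z : Subgroup G) (w : G) : Prop :=
  w ∈ B ∧ ∀ b ∈ A, ∃ f ∈ A ⊓ B, ∃ z ∈ Z, ⁅w, b⁆ = f * z

theorem Hyp.comm_v (H : Hyp S P A B Z Z₀) {y v : G} (hy : y ∈ iterCommutator B A 2)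
    (hv : ∃ f ∈ A ⊓ B, ∃ z ∈ Z, v = f * z) : y * v = v * y := by
  obtain ⟨f, hf, z, hz, rfl⟩ := hv
  have h1 : y * f = f * y := H.a4 hy ⟨hf.1, H.hBP hf.2⟩
  have h2 : y * z = z * y := (H.hZc z hz y (H.W_le_B 2 hy)).symm
  rw [← mul_assoc, h1, mul_assoc, h2, mul_assoc]

theorem Hyp.id_N (H : Hyp S P A B Z Z₀) {x w b : G} (hx : x ∈ iterCommutator B A 2) (hw : Nh A B Z w)
    (hb : b ∈ A) : ⁅⁅x, w⁆, b⁆ = ⁅⁅x, b⁆, w⁆ := by
  have hxB : x ∈ B := H.W_le_B 2 hx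
  have hwB : w ∈ B := hw.1
  have hu3 : ⁅x, b⁆ ∈ iterCommutator B A 3 := commutator_mem_commutator hx hb
  have hu2 : ⁅x, b⁆ ∈ iterCommutator B A 2 := W_anti H.hBA (by omega) hu3
  have huB : ⁅x, b⁆ ∈ B := H.W_le_B 2 hu2
  have hvB : ⁅w, b⁆ ∈ B := comm_mem_of_inv H.hBA hwB hb
  have hc1 : ⁅x, w⁆ ∈ Z₀ := H.hform x hxB w hwB
  have hc2 : ⁅⁅x, b⁆, w⁆ ∈ Z₀ := H.hform _ huB w hwB
  exact three_id (H.comm_v hx (hw.2 b hb)) (H.comm_v hu2 (hw.2 b hb))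
    (H.hZ₀c _ hc1 _ (H.hBP huB)) (H.hZ₀c _ hc1 _ (H.hBP hvB))
    (H.hZ₀c _ hc2 _ (H.hBP huB)) (H.hZ₀c _ hc2 _ (H.hBP hvB))
    (H.hZ₀c _ hc1 _ (H.hBP (H.hZB (H.hZ₀Z hc2))))

theorem Hyp.W3_comm_mem (H : Hyp S P A B Z Z₀) {w : G} (hw : Nh A B Z w) {x' : G}
    (hx' : x' ∈ iterCommutator B A 3) : ⁅x', w⁆ ∈ A := by
  let M := commSub B A w (fun y hy y' hy' => H.hZ₀c _ (H.hform y' hy' w hw.1) y (H.hBP hy))
  have h1 : iterCommutator B A 3 ≤ M := by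
    show ⁅iterCommutator B A 2, A⁆ ≤ M
    rw [commutator_le]
    intro x hx b hb
    refine ⟨comm_mem_of_inv H.hBA (H.W_le_B 2 hx) hb, ?_⟩
    rw [← H.id_N hx hw hb]
    exact H.hZ1 _ (H.hZ₀Z (H.hform x (H.W_le_B 2 hx) w hw.1)) b hb
  exact (h1 hx').2

theorem Hyp.W3_comm_of_le (H : Hyp S P A B Z Z₀) (hle : Z₀ ≤ A) {w : G} (hw : Nh A B Z w) {x' : G}
    (hx' : x' ∈ iterCommutator B A 3) : x' * w = w * x' := by
  have h1 : iterCommutator B A 3 ≤ centralizer ({w} : Set G) := by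
    show ⁅iterCommutator B A 2, A⁆ ≤ _
    rw [commutator_le]
    intro x hx b hb
    rw [mem_cent_single]
    apply commutatorElement_eq_one_iff_mul_comm.1
    rw [← H.id_N hx hw hb]
    exact commutatorElement_eq_one_iff_mul_comm.2
      (H.h.hA.comm _ (hle (H.hform x (H.W_le_B 2 hx) w hw.1)) _ hb)
  exact mem_cent_single.1 (h1 hx')

theorem Hyp.W4_comm (H : Hyp S P A B Z Z₀) {w : G} (hw : Nh A B Z w) {x : G}
    (hx : x ∈ iterCommutator B A 4) : x * w = w * x := by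
  have h1 : iterCommutator B A 4 ≤ centralizer ({w} : Set G) := by
    show ⁅iterCommutator B A 3, A⁆ ≤ _
    rw [commutator_le]
    intro x' hx' b hb
    rw [mem_cent_single]
    apply commutatorElement_eq_one_iff_mul_comm.1
    rw [← H.id_N (W_anti H.hBA (by omega) hx') hw hb]
    exact commutatorElement_eq_one_iff_mul_comm.2 (H.h.hA.comm _ (H.W3_comm_mem hw hx') _ hb)
  exact mem_cent_single.1 (h1 hx)

theorem Hyp.adjoin_L [Finite G] {p : ℕ} [Fact p.Prime] (H : Hyp S P A B Z Z₀) (hS : IsPGroup p S)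
    {V : Subgroup G} (hV2 : V ≤ iterCommutator B A 2)
    (hVab : ∀ a ∈ V, ∀ b ∈ V, a * b = b * a) (hVA : ∀ a ∈ A, ∀ v ∈ V, a * v * a⁻¹ ∈ V) {t : G}
    (ht : t ∈ iterCommutator B A 2) (htV : ∀ v ∈ V, t * v = v * t) (htA : ∀ a ∈ A, ⁅t, a⁆ ∈ V) {a : G}
    (ha : a ∈ A) : ⁅t, a⁆ ∈ A := by
  have hz : ∀ x ∈ zpowers t, ∀ y ∈ zpowers t, x * y = y * x := by
    intro x hx y hy
    obtain ⟨m, rfl⟩ := mem_zpowers_iff.1 hx
    obtain ⟨n, rfl⟩ := mem_zpowers_iff.1 hy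
    exact ((Commute.refl t).zpow_zpow m n).eq
  have hzV : ∀ x ∈ zpowers t, ∀ v ∈ V, x * v = v * x := by
    intro x hx v hv
    obtain ⟨m, rfl⟩ := mem_zpowers_iff.1 hx
    exact ((show Commute t v from htV v hv).zpow_left m).eq
  have hab := Count.sup_comm_of hz hVab hzV
  have hle2 : zpowers t ⊔ V ≤ iterCommutator B A 2 := sup_le (zpowers_le.2 ht) hV2
  have hinv : ∀ c ∈ A, ∀ y ∈ zpowers t ⊔ V, c * y * c⁻¹ ∈ zpowers t ⊔ V := by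
    intro c hc y hy
    have h1 : zpowers t ⊔ V ≤ (zpowers t ⊔ V).comap (MulAut.conj c).toMonoidHom := by
      refine sup_le (zpowers_le.2 ?_) ?_
      · show c * t * c⁻¹ ∈ zpowers t ⊔ V
        have h2 : c * t * c⁻¹ = ⁅t, c⁆⁻¹ * t := by
          rw [commutatorElement_def]
          group
        rw [h2]
        exact (zpowers t ⊔ V).mul_mem ((zpowers t ⊔ V).inv_mem (le_sup_right (a := zpowers t) (htA c hc)))
          (le_sup_left (b := V) (mem_zpowers t))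
      · intro v hv
        show c * v * c⁻¹ ∈ zpowers t ⊔ V
        exact le_sup_right (a := zpowers t) (hVA c hc v hv)
    exact h1 hy
  exact lemma_L hS H.h (hle2.trans ((H.W_le_B 2).trans H.hBP)) hab hinv
    (fun c hc w hw => H.a4 (hle2 hw) hc) t (le_sup_left (b := V) (mem_zpowers t)) a ha

/-- The descending property. -/
def QQ (A B : Subgroup G) (k : ℕ) : Prop :=
  (∀ x ∈ iterCommutator B A k, ∀ y ∈ iterCommutator B A k, x * y = y * x) ∧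
    ∀ w ∈ iterCommutator B A k, ∀ a ∈ A, ⁅w, a⁆ ∈ A

theorem Hyp.nh_of (H : Hyp S P A B Z Z₀) {w : G} (hw : w ∈ B) (hwA : ∀ a ∈ A, ⁅w, a⁆ ∈ A) :
    Nh A B Z w :=
  ⟨hw, fun b hb => ⟨⁅w, b⁆, ⟨hwA b hb, comm_mem_of_inv H.hBA hw hb⟩, 1, Z.one_mem, (mul_one _).symm⟩⟩

theorem Hyp.step [Finite G] {p : ℕ} [Fact p.Prime] (H : Hyp S P A B Z Z₀) (hS : IsPGroup p S) {k : ℕ}
    (hk : 4 ≤ k) (hQ : QQ A B (k + 1)) : QQ A B k := by
  have hk4 : iterCommutator B A k ≤ iterCommutator B A 4 := W_anti H.hBA hk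
  have hkA : ∀ t ∈ iterCommutator B A k, ∀ a ∈ A, ⁅t, a⁆ ∈ A := fun t ht a ha =>
    H.adjoin_L hS (V := iterCommutator B A (k + 1)) (W_anti H.hBA (by omega)) hQ.1 (W_inv H.hBA _)
      (W_anti H.hBA (by omega : 2 ≤ k) ht)
      (fun v hv => H.W4_comm (H.nh_of (H.W_le_B _ hv) (hQ.2 v hv)) (hk4 ht))
      (fun c hc => commutator_mem_commutator ht hc) ha
  exact ⟨fun x hx y hy => H.W4_comm (H.nh_of (H.W_le_B _ hy) (hkA y hy)) (hk4 hx), hkA⟩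

theorem Hyp.Q_four [Finite G] {p : ℕ} [Fact p.Prime] (H : Hyp S P A B Z Z₀) (hS : IsPGroup p S) :
    QQ A B 4 := by
  obtain ⟨N, hN⟩ := iter_eventually_bot hS ((H.hBP).trans H.h.hPS) H.h.hA.le
  have key : ∀ m k, 4 ≤ k → N ≤ k + m → QQ A B k := by
    intro m
    induction m with
    | zero =>
      intro k hk hNk
      have h1 : iterCommutator B A k = ⊥ := by
        apply le_bot_iff.1
        rw [← hN]
        exact W_anti H.hBA (by omega)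
      rw [QQ, h1]
      constructor
      · intro x hx y hy
        rw [mem_bot] at hx hy
        rw [hx, hy]
      · intro w hw a ha
        rw [mem_bot] at hw
        rw [hw, commutatorElement_one_left]
        exact A.one_mem
    | succ m ih =>
      intro k hk hNk
      exact H.step hS hk (ih (k + 1) (by omega) (by omega))
  exact key N 4 le_rfl (by omega)

/-- Elements of the join of commuting subgroups are products. -/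
theorem mem_sup_comm {C Y : Subgroup G} (h : ∀ c ∈ C, ∀ y ∈ Y, c * y = y * c) {x : G} (hx : x ∈ C ⊔ Y) :
    ∃ c ∈ C, ∃ y ∈ Y, x = c * y := by
  let M : Subgroup G :=
    { carrier := {x | ∃ c ∈ C, ∃ y ∈ Y, x = c * y}
      mul_mem' := by
        rintro _ _ ⟨c, hc, y, hy, rfl⟩ ⟨c', hc', y', hy', rfl⟩
        refine ⟨c * c', C.mul_mem hc hc', y * y', Y.mul_mem hy hy', ?_⟩
        have h1 : y * c' = c' * y := (h c' hc' y hy).symm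
        calc c * y * (c' * y') = c * (y * c') * y' := by group
          _ = c * (c' * y) * y' := by rw [h1]
          _ = _ := by group
      one_mem' := ⟨1, C.one_mem, 1, Y.one_mem, by simp⟩
      inv_mem' := by
        rintro _ ⟨c, hc, y, hy, rfl⟩
        refine ⟨c⁻¹, C.inv_mem hc, y⁻¹, Y.inv_mem hy, ?_⟩
        have h1 : c⁻¹ * y⁻¹ = y⁻¹ * c⁻¹ := ((show Commute c y from h c hc y hy).inv_right.inv_left).eq
        rw [mul_inv_rev, h1] }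
  have h1 : C ⊔ Y ≤ M := sup_le (fun c hc => ⟨c, hc, 1, Y.one_mem, by simp⟩)
    (fun y hy => ⟨1, C.one_mem, y, hy, by simp⟩)
  exact h1 hx

theorem card_lt_of_lt [Finite G] {H K : Subgroup G} (h : H < K) : Nat.card H < Nat.card K := by
  have h1 : (H : Set G) ⊂ (K : Set G) := h
  have h2 := Set.ncard_lt_ncard h1 (Set.toFinite _)
  rw [← Nat.card_coe_set_eq, ← Nat.card_coe_set_eq] at h2
  exact h2

end TQuintic

open TQuintic in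
theorem t_quintic [Finite G] {p : ℕ} [Fact p.Prime] {S P A B Z Z₀ : Subgroup G} (hS : IsPGroup p S) (h : Setup S P A)
    (hBP : B ≤ P) (hZB : Z ≤ B) (hZc : ∀ z ∈ Z, ∀ y ∈ B, z * y = y * z) (hZ₀Z : Z₀ ≤ Z)
    (hZ₀c : ∀ z ∈ Z₀, ∀ x ∈ P, z * x = x * z) (hform : ∀ x ∈ B, ∀ y ∈ B, ⁅x, y⁆ ∈ Z₀)
    (hPB : ∀ x ∈ P, ∀ y ∈ B, ⁅y, x⁆ ∈ Z) (hBA : ∀ a ∈ A, ∀ y ∈ B, a * y * a⁻¹ ∈ B)
    (hZA : ∀ a ∈ A, ∀ z ∈ Z, a * z * a⁻¹ ∈ Z) (hZ₀A : ∀ a ∈ A, ∀ z ∈ Z₀, a * z * a⁻¹ ∈ Z₀)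
    (hZ1 : ∀ z ∈ Z, ∀ a ∈ A, ⁅z, a⁆ ∈ A) :
    ∃ a ∈ A, a ∉ P ∧ ∀ w ∈ iterCommutator B A 4, ⁅w, a⁆ ∈ Z := by
  have H : Hyp S P A B Z Z₀ := ⟨h, hBP, hZB, hZc, hZ₀Z, hZ₀c, hform, hPB, hBA, hZA, hZ₀A, hZ1⟩
  obtain ⟨hW4ab, hW4A⟩ := H.Q_four hS
  have hW4P : iterCommutator B A 4 ≤ P := (H.W_le_B 4).trans hBP
  have hW42 : iterCommutator B A 4 ≤ iterCommutator B A 2 := W_anti hBA (by omega)
  by_cases hcase : ∀ t ∈ iterCommutator B A 3, ∀ a ∈ A, ⁅t, a⁆ ∈ A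
  · obtain ⟨a, ha, haP⟩ := SetLike.not_le_iff_exists.1 h.hout
    refine ⟨a, ha, haP, fun w hw => ?_⟩
    have hle : iterCommutator B A 4 ≤ A := by
      show ⁅iterCommutator B A 3, A⁆ ≤ A
      rw [commutator_le]
      exact hcase
    have h1 : ⁅w, a⁆ = 1 := commutatorElement_eq_one_iff_mul_comm.2 (h.hA.comm w (hle hw) a ha)
    rw [h1]
    exact Z.one_mem
  · push Not at hcase
    obtain ⟨t, ht, e', he', hne⟩ := hcase
    have ht2 : t ∈ iterCommutator B A 2 := W_anti hBA (by omega) ht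
    have htS : t ∈ S := h.hPS (hBP (H.W_le_B 2 ht2))
    have htW4 : ∀ a ∈ A, ⁅t, a⁆ ∈ iterCommutator B A 4 := fun a ha => commutator_mem_commutator ht ha
    obtain ⟨z₀, hz₀, hz₀A⟩ : ∃ z₀ ∈ Z₀, z₀ ∉ A := by
      by_contra hcon
      push Not at hcon
      refine hne (H.adjoin_L hS (V := iterCommutator B A 4) hW42 hW4ab (W_inv hBA 4) ht2 ?_ htW4 he')
      intro v hv
      exact H.W3_comm_of_le hcon (H.nh_of (H.W_le_B 4 hv) (hW4A v hv)) ht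
    have hcA : cA t A ≤ iterCommutator B A 4 := by
      refine (closure_le _).2 ?_
      rintro _ ⟨e, he, rfl⟩
      exact htW4 e he
    obtain ⟨K, hK, hKc, hD, hdec, hcard⟩ := gen_count h.hA htS
      (fun x hx y hy => hW4ab x (hcA hx) y (hcA hy))
    have hA₁K : A ⊓ P ≤ K := fun c hc => (hK c).2 ⟨hc.1, by
      rw [commutatorElement_eq_one_iff_mul_comm.2 (H.a4 ht2 hc)]
      exact A.one_mem⟩
    have hte' : ⁅t, e'⁆ ∈ cA t A := subset_closure ⟨e', he', rfl⟩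
    have hKP : K ≤ P := by
      by_contra hcon
      obtain ⟨d, hdK, hdP⟩ := SetLike.not_le_iff_exists.1 hcon
      have hDP : ¬ (K ⊔ cA t A) ≤ P := fun hle => hdP (hle (le_sup_left (b := cA t A) hdK))
      have hmax := h.hmax _ hD hDP
      have hlt : A ⊓ P < (K ⊔ cA t A) ⊓ P := by
        refine lt_of_le_of_ne (le_inf (hA₁K.trans le_sup_left) inf_le_right) (fun heq => ?_)
        have h1 : ⁅t, e'⁆ ∈ (K ⊔ cA t A) ⊓ P :=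
          ⟨le_sup_right (a := K) hte', hW4P (hcA hte')⟩
        rw [← heq] at h1
        exact hne h1.1
      have h2 := card_lt_of_lt hlt
      omega
    have hKeq : K = A ⊓ P := le_antisymm (le_inf (fun d hd => ((hK d).1 hd).1) hKP) hA₁K
    rw [hKeq] at hcard
    -- the abelian `W''`
    have hZ₀ab : ∀ a ∈ Z₀, ∀ b ∈ Z₀, a * b = b * a := fun a ha b hb =>
      hZ₀c a ha b (hBP (hZB (hZ₀Z hb)))
    have hXab := Count.sup_comm_of hW4ab hZ₀ab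
      (fun c hc w hw => (hZ₀c w hw c (hW4P hc)).symm)
    have hXP : iterCommutator B A 4 ⊔ Z₀ ≤ P := sup_le hW4P ((hZ₀Z.trans hZB).trans hBP)
    have hXS : iterCommutator B A 4 ⊔ Z₀ ≤ S := hXP.trans h.hPS
    have hXc : ∀ c ∈ A ⊓ P, ∀ w ∈ iterCommutator B A 4 ⊔ Z₀, c * w = w * c := by
      intro c hc w hw
      have h1 : iterCommutator B A 4 ⊔ Z₀ ≤ centralizer ({c} : Set G) := by
        refine sup_le (fun x hx => mem_cent_single.2 (H.a4 (hW42 hx) hc)) (fun x hx => ?_)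
        exact mem_cent_single.2 (hZ₀c x hx c hc.2)
      exact (mem_cent_single.1 (h1 hw)).symm
    have h1 := card_le_of_comm h.hA (inf_le_left : A ⊓ P ≤ A) hXS hXab hXc
    have hCX : cA t A ≤ iterCommutator B A 4 ⊔ Z₀ := hcA.trans le_sup_left
    have hYX : (iterCommutator B A 4 ⊔ Z₀) ⊓ A ≤ iterCommutator B A 4 ⊔ Z₀ := inf_le_left
    have hCY : ∀ c ∈ cA t A, ∀ y ∈ (iterCommutator B A 4 ⊔ Z₀) ⊓ A, c * y = y * c :=
      fun c hc y hy => hXab _ (hCX hc) _ (hYX hy)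
    have h2 := card_sup_comm hCY
    have hinf : cA t A ⊓ ((iterCommutator B A 4 ⊔ Z₀) ⊓ A) = cA t A ⊓ A := by
      apply le_antisymm
      · exact le_inf inf_le_left (inf_le_right.trans inf_le_right)
      · exact le_inf inf_le_left (le_inf (inf_le_left.trans hCX) inf_le_right)
    have hinf2 : (A ⊓ P) ⊓ (iterCommutator B A 4 ⊔ Z₀) = (iterCommutator B A 4 ⊔ Z₀) ⊓ A := by
      apply le_antisymm
      · exact le_inf inf_le_right (inf_le_left.trans inf_le_left)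
      · exact le_inf (le_inf inf_le_right (inf_le_left.trans hXP)) inf_le_left
    rw [hinf] at h2
    rw [hinf2] at h1
    have hcardle : Nat.card ↥(iterCommutator B A 4 ⊔ Z₀) ≤
        Nat.card ↥(cA t A ⊔ (iterCommutator B A 4 ⊔ Z₀) ⊓ A) := by
      have hpos : 0 < Nat.card ↥(A ⊓ P) * Nat.card ↥(cA t A ⊓ A) :=
        Nat.mul_pos Nat.card_pos Nat.card_pos
      refine Nat.le_of_mul_le_mul_left ?_ hpos
      calc Nat.card ↥(A ⊓ P) * Nat.card ↥(cA t A ⊓ A) * Nat.card ↥(iterCommutator B A 4 ⊔ Z₀)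
          = (Nat.card ↥(A ⊓ P) * Nat.card ↥(iterCommutator B A 4 ⊔ Z₀)) * Nat.card ↥(cA t A ⊓ A) := by ring
        _ ≤ (Nat.card A * Nat.card ↥((iterCommutator B A 4 ⊔ Z₀) ⊓ A)) * Nat.card ↥(cA t A ⊓ A) :=
            Nat.mul_le_mul_right _ h1
        _ = (Nat.card A * Nat.card ↥(cA t A ⊓ A)) * Nat.card ↥((iterCommutator B A 4 ⊔ Z₀) ⊓ A) := by ring
        _ = (Nat.card ↥(A ⊓ P) * Nat.card (cA t A)) * Nat.card ↥((iterCommutator B A 4 ⊔ Z₀) ⊓ A) := by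
            rw [hcard]
        _ = Nat.card ↥(A ⊓ P) * (Nat.card (cA t A) * Nat.card ↥((iterCommutator B A 4 ⊔ Z₀) ⊓ A)) := by ring
        _ = Nat.card ↥(A ⊓ P) * (Nat.card ↥(cA t A ⊔ (iterCommutator B A 4 ⊔ Z₀) ⊓ A) * Nat.card ↥(cA t A ⊓ A)) := by
            rw [h2]
        _ = _ := by ring
    have hXeq : cA t A ⊔ (iterCommutator B A 4 ⊔ Z₀) ⊓ A = iterCommutator B A 4 ⊔ Z₀ := by
      exact Subgroup.eq_of_le_of_card_ge (sup_le hCX hYX) hcardle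
    have hdecX : ∀ x ∈ iterCommutator B A 4 ⊔ Z₀, ∃ e ∈ A, ∃ w₁ ∈ (iterCommutator B A 4 ⊔ Z₀) ⊓ A,
        x = ⁅t, e⁆ * w₁ := by
      intro x hx
      rw [← hXeq] at hx
      obtain ⟨c, hc, y, hy, rfl⟩ := mem_sup_comm hCY hx
      obtain ⟨d, hd, w', hw', rfl⟩ := hdec c hc
      refine ⟨d, hd, w' * y, ?_, by group⟩
      exact ((iterCommutator B A 4 ⊔ Z₀) ⊓ A).mul_mem ⟨hCX hw'.1, hw'.2⟩ hy
    obtain ⟨b₀, hb₀, w₀, hw₀, hz⟩ := hdecX z₀ (le_sup_right (a := iterCommutator B A 4) hz₀)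
    have hb₀P : b₀ ∉ P := by
      intro hbP
      have h3 : ⁅t, b₀⁆ ∈ A := ((hK b₀).1 (hA₁K ⟨hb₀, hbP⟩)).2
      apply hz₀A
      rw [hz]
      exact A.mul_mem h3 hw₀.2
    refine ⟨b₀, hb₀, hb₀P, fun w hw => ?_⟩
    obtain ⟨e, he, w₁, hw₁, hwe⟩ := hdecX w (le_sup_left (b := Z₀) hw)
    have hAc := h.hA.comm
    have e1 : ⁅w, b₀⁆ = ⁅⁅t, e⁆, b₀⁆ := by
      rw [hwe]
      have h3 : w₁ * b₀ = b₀ * w₁ := hAc _ hw₁.2 _ hb₀
      simp only [commutatorElement_def]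
      calc t * e * t⁻¹ * e⁻¹ * w₁ * b₀ * (t * e * t⁻¹ * e⁻¹ * w₁)⁻¹ * b₀⁻¹
          = t * e * t⁻¹ * e⁻¹ * (w₁ * b₀) * w₁⁻¹ * (t * e * t⁻¹ * e⁻¹)⁻¹ * b₀⁻¹ := by group
        _ = t * e * t⁻¹ * e⁻¹ * (b₀ * w₁) * w₁⁻¹ * (t * e * t⁻¹ * e⁻¹)⁻¹ * b₀⁻¹ := by rw [h3]
        _ = _ := by group
    have hte4 := htW4 e he
    have htb4 := htW4 b₀ hb₀
    have e2 : ⁅⁅t, e⁆, b₀⁆ = ⁅⁅t, b₀⁆, e⁆ := comm_symm (hAc e he b₀ hb₀) (hW4ab _ hte4 _ htb4)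
      (hW4ab _ htb4 _ (comm_mem_of_inv (W_inv hBA 4) hte4 hb₀))
      (hW4ab _ hte4 _ (comm_mem_of_inv (W_inv hBA 4) htb4 he))
    have e3 : ⁅t, b₀⁆ = z₀ * w₀⁻¹ := by
      rw [hz]
      group
    have e4 : ⁅z₀ * w₀⁻¹, e⁆ = ⁅z₀, e⁆ := by
      have h3 : w₀⁻¹ * e = e * w₀⁻¹ :=
        ((show Commute w₀ e from hAc _ hw₀.2 _ he).inv_left).eq
      simp only [commutatorElement_def]
      calc z₀ * w₀⁻¹ * e * (z₀ * w₀⁻¹)⁻¹ * e⁻¹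
          = z₀ * (w₀⁻¹ * e) * w₀ * z₀⁻¹ * e⁻¹ := by group
        _ = z₀ * (e * w₀⁻¹) * w₀ * z₀⁻¹ * e⁻¹ := by rw [h3]
        _ = _ := by group
    rw [e1, e2, e3, e4]
    exact comm_mem_of_inv hZA (hZ₀Z hz₀) he

end Cfsg.Agent.Lib.JTrans
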