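import Mathlib
import Cfsg.Agent.Lib.JTrans.TQuintic
import Cfsg.Agent.Lib.JTrans.Case2
import Cfsg.Agent.Lib.JTrans.Filter
import Cfsg.Agent.Lib.JTrans.Choose
import Cfsg.Agent.Lib.PGroup.ChiefAct
import Cfsg.Agent.Lib.Basic.PCore

/-!
# The Engel element for the abelian Thompson subgroup (S3068)
-/

set_option autoImplicit false
set_option linter.style.haveILetI false
namespace Cfsg.Agent.Lib.JTrans
open Subgroup Cfsg
open scoped commutatorElement
variable {G : Type*} [Group G]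

namespace Hloc

/-- More iterations stay below a normal subgroup. -/
theorem iter_le_of_le {U V A : Subgroup G} (hV : V.Normal) {n : ℕ}
    (h : iterCommutator U A n ≤ V) : ∀ m, n ≤ m → iterCommutator U A m ≤ V := by
  intro m hm
  induction m, hm using Nat.le_induction with
  | base => exact h
  | succ m hm ih =>
    show ⁅iterCommutator U A m, A⁆ ≤ V
    exact (Subgroup.commutator_mono ih le_rfl).trans (Subgroup.commutator_le_left V A)

end Hloc

theorem Hloc.iter_mono_right {U D A : Subgroup G} (h : D ≤ A) (k : ℕ) : iterCommutator U D k ≤ iterCommutator U A k := by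
  induction k with
  | zero => exact le_rfl
  | succ k ih => exact Subgroup.commutator_mono ih h

/-- The Engel element for J(T). -/
theorem hloc_thompson {G : Type*} [Group G] [Finite G] {p : ℕ} [Fact p.Prime] (hp : 7 ≤ p) (T : Sylow p G)
    (hT : ¬ (thompsonSubgroupAOf (T : Subgroup G)).Normal) :
    ∃ g : G, g ∈ (T : Subgroup G) ∧ g ∉ pCore p G ∧ ∀ U V : Subgroup G, IsChiefFactor U V → U ≤ pCore p G →
      iterCommutator U (Subgroup.zpowers g) (p - 1) ≤ V := by
  classical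
  haveI hPn : (pCore p G).Normal := Cfsg.Agent.Lib.Basic.PCore.pCore_normal p G
  have hPp : IsPGroup p (pCore p G) := Cfsg.Agent.Lib.Basic.PCore.pCore_isPGroup p
  have hPS : pCore p G ≤ (T : Subgroup G) := Cfsg.Agent.Lib.Basic.PCore.pCore_le_sylow T
  obtain ⟨B, hBn, hBP, hA3, hA4, hform⟩ := exists_critical_data (G := G) p
  haveI := hBn
  let Z : Subgroup G := B ⊓ centralizer (B : Set G)
  haveI hZn : Z.Normal := inferInstance
  obtain ⟨A, hset, hmax2⟩ := exists_setup (S := (T : Subgroup G)) (P := pCore p G) (Z := Z) hPS hT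
  have hSp : IsPGroup p (T : Subgroup G) := T.isPGroup'
  have hZB : Z ≤ B := inf_le_left
  have hZc : ∀ z ∈ Z, ∀ y ∈ B, z * y = y * z := fun z hz y hy =>
    (mem_centralizer_iff.mp hz.2 y hy).symm
  have hPB : ∀ x ∈ pCore p G, ∀ y ∈ B, ⁅y, x⁆ ∈ Z := fun x hx y hy => by
    have h1 := hA3 (Subgroup.commutator_mem_commutator hx hy)
    have e : ⁅y, x⁆ = ⁅x, y⁆⁻¹ := (commutatorElement_inv x y).symm
    rw [e]
    exact Z.inv_mem h1
  have hBA : ∀ a ∈ A, ∀ y ∈ B, a * y * a⁻¹ ∈ B := fun a _ y hy => hBn.conj_mem y hy a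
  have hZA : ∀ a ∈ A, ∀ z ∈ Z, a * z * a⁻¹ ∈ Z := fun a _ y hy => hZn.conj_mem y hy a
  have hout : ∀ (a : G) (k : ℕ), a ∈ A → a ∉ pCore p G →
      (∀ U V : Subgroup G, IsChiefFactor U V → U ≤ pCore p G → iterCommutator U (Subgroup.zpowers a) k ≤ V) →
      k ≤ p - 1 → ∃ g : G, g ∈ (T : Subgroup G) ∧ g ∉ pCore p G ∧ ∀ U V : Subgroup G, IsChiefFactor U V → U ≤ pCore p G →
      iterCommutator U (Subgroup.zpowers g) (p - 1) ≤ V := by
    intro a k ha haP hE hk
    refine ⟨a, hset.hA.le ha, haP, fun U V hc hU => ?_⟩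
    exact Hloc.iter_le_of_le hc.2.2.1 (hE U V hc hU) _ hk
  have hDc : ∀ a : G, ∀ d ∈ Subgroup.zpowers a, ∀ d' ∈ Subgroup.zpowers a, d * d' = d' * d := by
    rintro a _ ⟨i, rfl⟩ _ ⟨j, rfl⟩
    exact zpow_mul_comm a i j
  by_cases hZ1 : ∀ z ∈ Z, ∀ a ∈ A, ⁅z, a⁆ ∈ A
  · -- `Z` normalizes `A`
    let Z₀ : Subgroup G := pCore p G ⊓ centralizer ((pCore p G : Subgroup G) : Set G)
    haveI hZ₀n : Z₀.Normal := inferInstance
    have hZ₀Z : Z₀ ≤ Z := fun z hz => hA4 ⟨hz.1, Subgroup.centralizer_le hBP hz.2⟩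
    have hZ₀c : ∀ z ∈ Z₀, ∀ x ∈ pCore p G, z * x = x * z := fun z hz x hx =>
      (mem_centralizer_iff.mp hz.2 x hx).symm
    have hZ₀A : ∀ a ∈ A, ∀ z ∈ Z₀, a * z * a⁻¹ ∈ Z₀ := fun a _ y hy => hZ₀n.conj_mem y hy a
    obtain ⟨a, haA, haP, haW⟩ := t_quintic hSp hset hBP hZB hZc hZ₀Z hZ₀c hform hPB hBA hZA hZ₀A hZ1
    have hDA : Subgroup.zpowers a ≤ A := (Subgroup.zpowers_le).mpr haA
    refine hout a 6 haA haP ?_ (by omega)
    refine engel_main hPp hBP (hDc a) hA3 hA4 (m := 5) (n := 2) (k := 6) (by norm_num) (by norm_num) (by norm_num) ?_ ?_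
    · change ⁅iterCommutator B (zpowers a) 4, zpowers a⁆ ≤ Z
      exact Cfsg.Agent.Lib.PGroup.ChiefAct.commutator_zpowers_le
        (fun x hx => haW x (Hloc.iter_mono_right hDA 4 hx))
    · intro U V hc hU
      change ⁅⁅U, zpowers a⁆, zpowers a⁆ ≤ V
      have h1 : ⁅U, zpowers a⁆ ≤ A := by
        rw [Subgroup.commutator_le]
        intro u hu d hd
        exact hZ1 u (hU hu) d (hDA hd)
      have h2 : ⁅⁅U, zpowers a⁆, zpowers a⁆ = ⊥ := by
        rw [eq_bot_iff, Subgroup.commutator_le]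
        intro x hx y hy
        rw [Subgroup.mem_bot, commutatorElement_eq_one_iff_mul_comm]
        exact hset.hA.comm x (h1 hx) y (hDA hy)
      rw [h2]
      exact bot_le
  · -- `Z` does not normalize `A`
    obtain ⟨a, haA, haP⟩ := SetLike.not_le_iff_exists.mp hset.hout
    have hDA : Subgroup.zpowers a ≤ A := (Subgroup.zpowers_le).mpr haA
    refine hout a 5 haA haP ?_ (by omega)
    refine engel_main hPp hBP (hDc a) hA3 hA4 (m := 3) (n := 3) (k := 5) (by norm_num) (by norm_num) (by norm_num) ?_ ?_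
    · exact (Hloc.iter_mono_right hDA 3).trans (case2_T hSp hset hmax2 hBP hZB hZc hPB hBA hZA hZ1)
    · intro U V hc hU
      have hZP : Z ≤ pCore p G := hZB.trans hBP
      refine (Hloc.iter_mono_right hDA 3).trans ?_
      haveI hUn : U.Normal := hc.2.1
      haveI hVn : V.Normal := hc.2.2.1
      exact case2_chief hSp hset hmax2 hZP (fun x hx y hy => hZc x hx y (hZB hy)) hZA hU hc.1.le
        (fun a _ u hu => hUn.conj_mem u hu a) (fun a _ u hu => hVn.conj_mem u hu a)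
        (Cfsg.Agent.Lib.PGroup.ChiefAct.chief_central hPp hc (hU.trans hZP))

end Cfsg.Agent.Lib.JTrans
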